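import Mathlib

/-!
# Eigenspaces permuted by a shift

If `f^r = 1`, `ξ` is a primitive `r`-th root of unity and `y` is injective with `f y = ξ y f`,
all eigenspaces for the `r`-th roots of unity have the same dimension.
-/

set_option autoImplicit false

namespace Cfsg.Agent.Lib.Huppert

open Polynomial Module

section

variable {K V : Type*} [Field K] [AddCommGroup V] [Module K V] [FiniteDimensional K V]

theorem eigen_key [Nontrivial V] {f y : Module.End K V} (hy : Function.Injective y) {r : ℕ}
    [NeZero r] {ξ : K} (hξ : IsPrimitiveRoot ξ r) (hf : f ^ r = 1)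
    (hfy : ∀ v, f (y v) = ξ • y (f v)) :
    finrank K (Module.End.eigenspace f 1) ≠ 0 ∧
      r * finrank K (Module.End.eigenspace f 1) ≤ finrank K V := by
  classical
  have hr : 0 < r := Nat.pos_of_ne_zero (NeZero.ne r)
  have hmap : ∀ μ : K, finrank K (Module.End.eigenspace f μ)
      ≤ finrank K (Module.End.eigenspace f (ξ * μ)) := by
    intro μ
    have hres : ∀ v ∈ Module.End.eigenspace f μ, y v ∈ Module.End.eigenspace f (ξ * μ) := by
      intro v hv
      rw [Module.End.mem_eigenspace_iff] at hv ⊢
      rw [hfy, hv, map_smul, smul_smul]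
    refine LinearMap.finrank_le_finrank_of_injective (f := y.restrict hres) ?_
    intro a b hab
    have : y a = y b := congrArg Subtype.val hab
    exact Subtype.ext (hy this)
  set d : ℕ → ℕ := fun i => finrank K (Module.End.eigenspace f (ξ ^ i)) with hd
  have h1 : ∀ i j, d i ≤ d (i + j) := by
    intro i j
    induction j with
    | zero => exact le_rfl
    | succ j ih =>
      refine ih.trans ?_
      have := hmap (ξ ^ (i + j))
      rw [← pow_succ'] at this
      exact this
  have hper : ∀ i, d (r * i) = d 0 := by
    intro i
    simp only [hd]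
    rw [pow_mul, hξ.pow_eq_one, one_pow, pow_zero]
  have hconst : ∀ i, d i = d 0 := by
    intro i
    apply le_antisymm
    · have := h1 i (r * i - i)
      have h2 : i + (r * i - i) = r * i := by
        have : i ≤ r * i := Nat.le_mul_of_pos_left i hr
        omega
      rw [h2, hper] at this
      exact this
    · have := h1 0 i
      rwa [zero_add] at this
  have hd0 : d 0 = finrank K (Module.End.eigenspace f 1) := by
    show finrank K (Module.End.eigenspace f (ξ ^ 0)) = _
    rw [pow_zero]
  rw [← hd0]
  constructor
  · -- there is an eigenvalue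
    have hint : IsIntegral K f := Algebra.IsIntegral.isIntegral f
    have hdvd : minpoly K f ∣ X ^ r - C (1 : K) := by
      apply minpoly.dvd
      simp [hf]
    have hne : (X ^ r - C (1 : K)) ≠ 0 := X_pow_sub_C_ne_zero hr 1
    have hsp : (minpoly K f).Splits := (X_pow_sub_one_splits hξ).of_dvd hne hdvd
    have hdeg : (minpoly K f).degree ≠ 0 := (minpoly.degree_pos hint).ne'
    obtain ⟨μ, hμ⟩ := hsp.exists_eval_eq_zero hdeg
    have hroot : (minpoly K f).IsRoot μ := hμ
    have hev : f.HasEigenvalue μ := Module.End.hasEigenvalue_of_isRoot hroot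
    have hμr : μ ^ r = 1 := by
      have : (X ^ r - C (1 : K)).IsRoot μ := hroot.dvd hdvd
      simpa [sub_eq_zero] using this
    obtain ⟨i, _, rfl⟩ := hξ.eq_pow_of_pow_eq_one hμr
    intro h0
    rw [← hconst i] at h0
    have : Module.End.eigenspace f (ξ ^ i) = ⊥ := Submodule.finrank_eq_zero.1 h0
    exact hev this
  · have hind : iSupIndep (fun i : Fin r => Module.End.eigenspace f (ξ ^ (i : ℕ))) := by
      have h2 := Module.End.eigenspaces_iSupIndep f
      have hinj : Function.Injective (fun i : Fin r => ξ ^ (i : ℕ)) := by
        intro a b hab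
        exact Fin.ext (hξ.pow_inj a.2 b.2 hab)
      exact h2.comp hinj
    have hlsum := hind.dfinsupp_lsum_injective
    have h3 := LinearMap.finrank_le_finrank_of_injective hlsum
    have h4 : finrank K (Π₀ i : Fin r, Module.End.eigenspace f (ξ ^ (i : ℕ)))
        = ∑ i : Fin r, finrank K (Module.End.eigenspace f (ξ ^ (i : ℕ))) :=
      Module.finrank_directSum K (fun i : Fin r => Module.End.eigenspace f (ξ ^ (i : ℕ)))
    rw [h4] at h3
    have h5 : ∑ i : Fin r, finrank K (Module.End.eigenspace f (ξ ^ (i : ℕ))) = r * d 0 := by
      have : ∀ i : Fin r, finrank K (Module.End.eigenspace f (ξ ^ (i : ℕ))) = d 0 :=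
        fun i => hconst i
      simp [this]
    rw [h5] at h3
    exact h3

end

end Cfsg.Agent.Lib.Huppert
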