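import Mathlib
import Cfsg.Agent.Lib.Core.Basic
import Cfsg.Agent.Lib.Transfer.Frat

/-!
# Group theory around a maximal abelian normal subgroup

`B` a maximal abelian normal subgroup of a finite solvable group, `T = F(G) ∩ C_G(B)`.
Then `Z(T) = B`, `T/B` is abelian of squarefree exponent, and `C_G(B)/T` acts faithfully on `T/B`.
-/

set_option autoImplicit false

namespace Cfsg.Agent.Lib.Huppert

open Subgroup
open scoped commutatorElement

variable {G : Type*} [Group G]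

/-- `B` is a maximal abelian normal subgroup. -/
structure IsMaxAbNormal (B : Subgroup G) : Prop where
  normal : B.Normal
  comm : ∀ x ∈ B, ∀ y ∈ B, x * y = y * x
  max : ∀ A : Subgroup G, A.Normal → (∀ x ∈ A, ∀ y ∈ A, x * y = y * x) → B ≤ A → A = B

theorem exists_isMaxAbNormal [Finite G] : ∃ B : Subgroup G, IsMaxAbNormal B := by
  classical
  have hfin : ({A : Subgroup G | A.Normal ∧ ∀ x ∈ A, ∀ y ∈ A, x * y = y * x}).Finite :=
    Set.toFinite _
  have hne : ({A : Subgroup G | A.Normal ∧ ∀ x ∈ A, ∀ y ∈ A, x * y = y * x}).Nonempty :=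
    ⟨⊥, Subgroup.normal_bot, by
      intro x hx y hy
      rw [Subgroup.mem_bot] at hx hy
      simp [hx, hy]⟩
  obtain ⟨B, hB, hmax⟩ := hfin.exists_maximal hne
  exact ⟨B, hB.1, hB.2, fun A hA hc hle => le_antisymm (hmax ⟨hA, hc⟩ hle) hle⟩

/-- `T = F(G) ∩ C_G(B)`. -/
noncomputable def tee (B : Subgroup G) : Subgroup G :=
  Cfsg.fittingSubgroup G ⊓ centralizer (B : Set G)

section
variable {B : Subgroup G}

theorem mem_centralizer_iff' {g : G} : g ∈ centralizer (B : Set G) ↔ ∀ b ∈ B, b * g = g * b :=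
  Subgroup.mem_centralizer_iff

theorem IsMaxAbNormal.centralizer_normal (hB : IsMaxAbNormal B) :
    (centralizer (B : Set G)).Normal := by
  haveI := hB.normal
  infer_instance

theorem IsMaxAbNormal.tee_normal (hB : IsMaxAbNormal B) : (tee B).Normal := by
  haveI := hB.normal
  unfold tee
  haveI : (Cfsg.fittingSubgroup G).Normal := Cfsg.Agent.Lib.Core.fittingSubgroup_normal G
  infer_instance

theorem tee_le_centralizer : tee B ≤ centralizer (B : Set G) := inf_le_right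

theorem tee_le_fitting : tee B ≤ Cfsg.fittingSubgroup G := inf_le_left

/-- elements of `B` commute with elements of `T` -/
theorem comm_of_mem_tee {b t : G} (hb : b ∈ B) (ht : t ∈ tee B) : b * t = t * b :=
  (mem_centralizer_iff'.1 (tee_le_centralizer ht)) b hb

theorem IsMaxAbNormal.le_tee [Finite G] (hB : IsMaxAbNormal B) : B ≤ tee B := by
  refine le_inf ?_ ?_
  · haveI := hB.normal
    refine Cfsg.Agent.Lib.Core.le_fittingSubgroup hB.normal ?_
    letI : CommGroup B := { (inferInstance : Group B) with mul_comm := fun a b => Subtype.ext (hB.comm _ a.2 _ b.2) }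
    exact CommGroup.isNilpotent (G := B)
  · intro b hb
    exact mem_centralizer_iff'.2 fun c hc => hB.comm _ hc _ hb

theorem tee_isNilpotent [Finite G] (hB : IsMaxAbNormal B) : Group.IsNilpotent (tee B) := by
  haveI := hB.tee_normal
  exact Cfsg.Agent.Lib.Core.le_fittingSubgroup_iff.1 tee_le_fitting

theorem nilp_step {T : Type*} [Group T] (hT : Group.IsNilpotent T) (N : Subgroup T) (hN : N ≠ ⊤) :
    ∃ t, t ∉ N ∧ ∀ y, t * y * t⁻¹ * y⁻¹ ∈ N := by
  classical
  obtain ⟨n, hn⟩ := hT.nilpotent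
  have hex : ∃ i, ¬ Subgroup.upperCentralSeries T i ≤ N := by
    refine ⟨n, ?_⟩
    rw [hn]
    intro h
    exact hN (top_le_iff.1 h)
  have hmin : ∀ m, m < Nat.find hex → ¬ ¬ Subgroup.upperCentralSeries T m ≤ N :=
    fun m hm => Nat.find_min hex hm
  have hspec := Nat.find_spec hex
  rcases hi : Nat.find hex with _ | j
  · rw [hi] at hspec
    exact absurd (by simp) hspec
  · rw [hi] at hspec
    have hj : Subgroup.upperCentralSeries T j ≤ N := by
      by_contra hc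
      exact hmin j (by omega) hc
    obtain ⟨t, ht, htN⟩ := SetLike.not_le_iff_exists.1 hspec
    refine ⟨t, htN, fun y => hj ?_⟩
    exact (Subgroup.mem_upperCentralSeries_succ_iff).1 ht y

/-- `Z(T) = B` -/
theorem IsMaxAbNormal.mem_of_central [Finite G] (hB : IsMaxAbNormal B) {x : G} (hx : x ∈ tee B)
    (h : ∀ y ∈ tee B, x * y = y * x) : x ∈ B := by
  haveI := hB.tee_normal
  have hA : (tee B ⊓ centralizer (tee B : Set G)).Normal := inferInstance
  have := hB.max _ hA (by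
      rintro a ⟨_, ha⟩ a' ⟨ha', _⟩
      exact ((Subgroup.mem_centralizer_iff.1 ha) a' ha').symm) (by
      intro b hb
      refine ⟨hB.le_tee hb, Subgroup.mem_centralizer_iff.2 fun y hy => ?_⟩
      exact (comm_of_mem_tee hb hy).symm)
  rw [← this]
  exact ⟨hx, Subgroup.mem_centralizer_iff.2 fun y hy => (h y hy).symm⟩

/-- `D₀` : the preimage of the centre of `T/B`. -/
def dee (B : Subgroup G) : Subgroup G where
  carrier := {t | t ∈ tee B ∧ ∀ y ∈ tee B, t * y * t⁻¹ * y⁻¹ ∈ B}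
  mul_mem' := by
    rintro t₁ t₂ ⟨h1, h1'⟩ ⟨h2, h2'⟩
    refine ⟨mul_mem h1 h2, fun y hy => ?_⟩
    have ha := h2' y hy
    have e : t₁ * t₂ * y * (t₁ * t₂)⁻¹ * y⁻¹
        = (t₁ * (t₂ * y * t₂⁻¹ * y⁻¹) * t₁⁻¹) * (t₁ * y * t₁⁻¹ * y⁻¹) := by group
    rw [e]
    have hc : t₁ * (t₂ * y * t₂⁻¹ * y⁻¹) * t₁⁻¹ = t₂ * y * t₂⁻¹ * y⁻¹ := by
      rw [← comm_of_mem_tee ha h1]
      group
    rw [hc]
    exact mul_mem ha (h1' y hy)
  one_mem' := ⟨one_mem _, fun y _ => by simp [one_mem]⟩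
  inv_mem' := by
    rintro t ⟨h, h'⟩
    refine ⟨inv_mem h, fun y hy => ?_⟩
    have ha := inv_mem (h' y hy)
    have e : t⁻¹ * y * t⁻¹⁻¹ * y⁻¹ = t⁻¹ * (t * y * t⁻¹ * y⁻¹)⁻¹ * t := by group
    have hcomm : Commute (t * y * t⁻¹ * y⁻¹)⁻¹ t := comm_of_mem_tee ha h
    have e2 : t⁻¹ * (t * y * t⁻¹ * y⁻¹)⁻¹ * t = (t * y * t⁻¹ * y⁻¹)⁻¹ := by
      rw [mul_assoc, hcomm.eq]
      group
    rw [e, e2]
    exact ha

theorem mem_dee {t : G} : t ∈ dee B ↔ t ∈ tee B ∧ ∀ y ∈ tee B, t * y * t⁻¹ * y⁻¹ ∈ B := Iff.rfl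

theorem IsMaxAbNormal.dee_normal (hB : IsMaxAbNormal B) : (dee B).Normal := by
  haveI := hB.tee_normal
  haveI := hB.normal
  constructor
  rintro t ⟨h, h'⟩ g
  refine ⟨Subgroup.Normal.conj_mem inferInstance t h g, fun y hy => ?_⟩
  have hy' : g⁻¹ * y * g ∈ tee B := by
    have := Subgroup.Normal.conj_mem (inferInstance : (tee B).Normal) y hy g⁻¹
    simpa using this
  have h2 := Subgroup.Normal.conj_mem (inferInstance : B.Normal) _ (h' _ hy') g
  convert h2 using 1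
  group

theorem comm_central {c₁ c₂ t y : G} (h1t : Commute c₁ t) (h1y : Commute c₁ y) (h2t : Commute c₂ t)
    (h2y : Commute c₂ y) (h12 : Commute c₁ c₂) :
    (c₁ * t) * (c₂ * y) * (c₁ * t)⁻¹ * (c₂ * y)⁻¹ = t * y * t⁻¹ * y⁻¹ := by
  have h3 : Commute c₁ (t * y * t⁻¹) := (h1t.mul_right h1y).mul_right h1t.inv_right
  have h4 : Commute c₂ (t * y * t⁻¹ * y⁻¹) :=
    ((h2t.mul_right h2y).mul_right h2t.inv_right).mul_right h2y.inv_right
  have h5 : Commute c₂ (c₁ * t) := h12.symm.mul_right h2t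
  calc (c₁ * t) * (c₂ * y) * (c₁ * t)⁻¹ * (c₂ * y)⁻¹
      = ((c₁ * t) * c₂) * y * (c₁ * t)⁻¹ * y⁻¹ * c₂⁻¹ := by group
    _ = c₂ * (c₁ * t) * y * (c₁ * t)⁻¹ * y⁻¹ * c₂⁻¹ := by rw [← h5.eq]
    _ = c₂ * (c₁ * (t * y * t⁻¹) * c₁⁻¹) * y⁻¹ * c₂⁻¹ := by group
    _ = c₂ * ((t * y * t⁻¹) * c₁ * c₁⁻¹) * y⁻¹ * c₂⁻¹ := by rw [h3.eq]
    _ = c₂ * (t * y * t⁻¹ * y⁻¹) * c₂⁻¹ := by group
    _ = (t * y * t⁻¹ * y⁻¹) * c₂ * c₂⁻¹ := by rw [h4.eq]
    _ = _ := by group

/-- `T/B` is abelian. -/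
theorem IsMaxAbNormal.comm_mem [Finite G] (hB : IsMaxAbNormal B) {x y : G} (hx : x ∈ tee B)
    (hy : y ∈ tee B) : x * y * x⁻¹ * y⁻¹ ∈ B := by
  haveI := hB.tee_normal
  haveI := hB.dee_normal
  have hA : (dee B ⊓ centralizer (dee B : Set G)).Normal := inferInstance
  have hAeq := hB.max _ hA (by
      rintro a ⟨_, ha⟩ a' ⟨ha', _⟩
      exact ((Subgroup.mem_centralizer_iff.1 ha) a' ha').symm) (by
      intro b hb
      refine ⟨⟨hB.le_tee hb, fun y hy => ?_⟩, Subgroup.mem_centralizer_iff.2 fun y hy => ?_⟩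
      · rw [comm_of_mem_tee hb hy]
        simp [one_mem]
      · exact (comm_of_mem_tee hb hy.1).symm)
  -- step B
  have stepB : ∀ t ∈ tee B, (∀ y ∈ tee B, t * y * t⁻¹ * y⁻¹ ∈ dee B) → t ∈ dee B := by
    intro t ht h
    refine ⟨ht, fun y hy => ?_⟩
    rw [← hAeq]
    refine ⟨h y hy, Subgroup.mem_centralizer_iff.2 fun d hd => ?_⟩
    have hc1 : d * t * d⁻¹ * t⁻¹ ∈ B := hd.2 t ht
    have hc2 : d * y * d⁻¹ * y⁻¹ ∈ B := hd.2 y hy
    have e1 : d * t * d⁻¹ = (d * t * d⁻¹ * t⁻¹) * t := by group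
    have e2 : d * y * d⁻¹ = (d * y * d⁻¹ * y⁻¹) * y := by group
    have key := comm_central (c₁ := d * t * d⁻¹ * t⁻¹) (c₂ := d * y * d⁻¹ * y⁻¹) (t := t) (y := y)
      (comm_of_mem_tee hc1 ht) (comm_of_mem_tee hc1 hy) (comm_of_mem_tee hc2 ht)
      (comm_of_mem_tee hc2 hy) (hB.comm _ hc1 _ hc2)
    rw [← e1, ← e2] at key
    have e3 : d * (t * y * t⁻¹ * y⁻¹) = (t * y * t⁻¹ * y⁻¹) * d := by
      calc d * (t * y * t⁻¹ * y⁻¹)
          = ((d * t * d⁻¹) * (d * y * d⁻¹) * (d * t * d⁻¹)⁻¹ * (d * y * d⁻¹)⁻¹) * d := by group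
        _ = (t * y * t⁻¹ * y⁻¹) * d := by rw [key]
    exact e3
  -- step C
  have stepC : tee B ≤ dee B := by
    by_contra hc
    have hN : (dee B).subgroupOf (tee B) ≠ ⊤ := by
      intro h
      exact hc (Subgroup.subgroupOf_eq_top.1 h)
    obtain ⟨t, ht, hty⟩ := nilp_step (tee_isNilpotent hB) _ hN
    apply ht
    rw [Subgroup.mem_subgroupOf]
    refine stepB t t.2 fun y hy => ?_
    have := hty ⟨y, hy⟩
    rw [Subgroup.mem_subgroupOf] at this
    simpa using this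
  exact (stepC hx).2 y hy

/-- `Commute` form of `comm_mem`. -/
theorem IsMaxAbNormal.comm_mem' [Finite G] (hB : IsMaxAbNormal B) {x y : G} (hx : x ∈ tee B)
    (hy : y ∈ tee B) : ⁅x, y⁆ ∈ B := by
  rw [commutatorElement_def]
  exact hB.comm_mem hx hy

theorem IsMaxAbNormal.commute_comm [Finite G] (hB : IsMaxAbNormal B) {x y z : G} (hx : x ∈ tee B)
    (hy : y ∈ tee B) (hz : z ∈ tee B) : Commute ⁅x, y⁆ z :=
  comm_of_mem_tee (hB.comm_mem' hx hy) hz

/-- `T/B` has squarefree exponent. -/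
theorem IsMaxAbNormal.pow_mem_of_pow_pow_mem [Finite G] (hB : IsMaxAbNormal B) {x : G}
    (hx : x ∈ tee B) (r : ℕ) (h : x ^ (r * r) ∈ B) : x ^ r ∈ B := by
  haveI := hB.tee_normal
  haveI := hB.normal
  set S : Set G := (B : Set G) ∪ {w | ∃ g : G, w = (g * x * g⁻¹) ^ r} with hS
  have hgT : ∀ g : G, g * x * g⁻¹ ∈ tee B := fun g =>
    Subgroup.Normal.conj_mem inferInstance x hx g
  have hST : ∀ w ∈ S, w ∈ tee B := by
    rintro w (hw | ⟨g, rfl⟩)
    · exact hB.le_tee hw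
    · exact pow_mem (hgT g) r
  have hnorm : (Subgroup.closure S).Normal := by
    constructor
    intro n hn g
    have hle : Subgroup.closure S ≤ (Subgroup.closure S).comap (MulAut.conj g).toMonoidHom := by
      rw [Subgroup.closure_le]
      rintro w (hw | ⟨k, rfl⟩)
      · apply Subgroup.subset_closure
        left
        exact Subgroup.Normal.conj_mem inferInstance w hw g
      · apply Subgroup.subset_closure
        right
        refine ⟨g * k, ?_⟩
        simp only [MulAut.conj_apply, MulEquiv.coe_toMonoidHom, conj_pow]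
        group
    simpa using hle hn
  have hcomm : ∀ a ∈ S, ∀ b ∈ S, a * b = b * a := by
    have hww : ∀ g h : G, (g * x * g⁻¹) ^ r * (h * x * h⁻¹) ^ r = (h * x * h⁻¹) ^ r * (g * x * g⁻¹) ^ r := by
      intro g k
      set xg := g * x * g⁻¹ with hxg
      set xk := k * x * k⁻¹ with hxk
      set w' := xk ^ r with hw'
      have hw'T : w' ∈ tee B := pow_mem (hgT k) r
      have h1 : ⁅xg ^ r, w'⁆ = ⁅xg, w'⁆ ^ r :=
        Cfsg.Agent.Lib.Transfer.comm_pow_left (hB.commute_comm (hgT g) hw'T (hgT g)) r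
      have h2 : ⁅xg, w' ^ r⁆ = ⁅xg, w'⁆ ^ r :=
        Cfsg.Agent.Lib.Transfer.comm_pow_right (hB.commute_comm (hgT g) hw'T hw'T) r
      have h3 : w' ^ r ∈ B := by
        have : w' ^ r = k * x ^ (r * r) * k⁻¹ := by
          rw [hw', ← pow_mul, hxk, conj_pow]
        rw [this]
        exact Subgroup.Normal.conj_mem inferInstance _ h k
      have h4 : ⁅xg, w' ^ r⁆ = 1 := by
        rw [commutatorElement_eq_one_iff_commute]
        exact (comm_of_mem_tee h3 (hgT g)).symm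
      have h5 : ⁅xg ^ r, w'⁆ = 1 := by rw [h1, ← h2, h4]
      exact commutatorElement_eq_one_iff_commute.1 h5
    rintro a (ha | ⟨g, rfl⟩) b (hb | ⟨k, rfl⟩)
    · exact hB.comm _ ha _ hb
    · exact comm_of_mem_tee ha (pow_mem (hgT k) r)
    · exact (comm_of_mem_tee hb (pow_mem (hgT g) r)).symm
    · exact hww g k
  have hcomm' : ∀ a ∈ Subgroup.closure S, ∀ b ∈ Subgroup.closure S, a * b = b * a := by
    have := Subgroup.isMulCommutative_closure hcomm
    intro a ha b hb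
    have h := this.is_comm.comm ⟨a, ha⟩ ⟨b, hb⟩
    exact congrArg Subtype.val h
  have hAeq := hB.max _ hnorm hcomm' (fun b hb => Subgroup.subset_closure (Or.inl hb))
  rw [← hAeq]
  apply Subgroup.subset_closure
  right
  exact ⟨1, by simp⟩

/-- A perfect subgroup of a solvable group is trivial. -/
theorem eq_bot_of_perfect {H : Type*} [Group H] [Group.IsSolvable H] (P : Subgroup H)
    (hP : ⁅P, P⁆ = P) : P = ⊥ := by
  obtain ⟨n, hn⟩ := (inferInstance : Group.IsSolvable H).solvable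
  have : ∀ k, P ≤ derivedSeries H k := by
    intro k
    induction k with
    | zero => simp
    | succ k ih =>
      rw [derivedSeries_succ, ← hP]
      exact Subgroup.commutator_mono ih ih
  rw [eq_bot_iff, ← hn]
  exact this n

/-- If `N/T` is nontrivial in a solvable group then there is a normal `Y` with `T < Y ≤ N` and
`Y/T` abelian. -/
theorem exists_abelian_step [Finite G] [Group.IsSolvable G] {T N : Subgroup G} (hT : T.Normal)
    (hN : N.Normal) (hTN : T ≤ N) (hne : N ≠ T) :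
    ∃ Y : Subgroup G, Y.Normal ∧ T ≤ Y ∧ Y ≤ N ∧ Y ≠ T ∧ ⁅Y, Y⁆ ≤ T := by
  classical
  have hfin : ({Y : Subgroup G | Y.Normal ∧ T ≤ Y ∧ Y ≤ N ∧ Y ≠ T}).Finite := Set.toFinite _
  obtain ⟨Y, hY, hmin⟩ := hfin.exists_minimal ⟨N, hN, hTN, le_rfl, hne⟩
  obtain ⟨hYn, hTY, hYN, hYT⟩ := hY
  refine ⟨Y, hYn, hTY, hYN, hYT, ?_⟩
  haveI := hYn
  haveI := hT
  have hW : (⁅Y, Y⁆ ⊔ T).Normal := inferInstance
  have hWY : ⁅Y, Y⁆ ⊔ T ≤ Y := sup_le (Subgroup.commutator_le_left Y Y) hTY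
  by_cases hWT : ⁅Y, Y⁆ ⊔ T = T
  · exact sup_eq_right.1 hWT
  · exfalso
    have hle : Y ≤ ⁅Y, Y⁆ ⊔ T := hmin ⟨hW, le_sup_right, hWY.trans hYN, hWT⟩ hWY
    have hYeq : ⁅Y, Y⁆ ⊔ T = Y := le_antisymm hWY hle
    -- pass to the quotient
    have hP : ⁅Y.map (QuotientGroup.mk' T), Y.map (QuotientGroup.mk' T)⁆ = Y.map (QuotientGroup.mk' T) := by
      rw [← Subgroup.map_commutator]
      conv_rhs => rw [← hYeq]
      rw [Subgroup.map_sup]
      have : T.map (QuotientGroup.mk' T) = ⊥ := by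
        rw [Subgroup.map_eq_bot_iff, QuotientGroup.ker_mk']
      rw [this, sup_bot_eq]
    have hbot := eq_bot_of_perfect _ hP
    apply hYT
    refine le_antisymm ?_ hTY
    rw [Subgroup.map_eq_bot_iff, QuotientGroup.ker_mk'] at hbot
    exact hbot

/-- nilpotency of a subgroup with a central series `Y ≥ T ≥ B ≥ 1`. -/
theorem isNilpotent_of_chain {Y T B : Subgroup G}
    (h0 : ∀ x ∈ Y, ∀ g ∈ Y, ⁅x, g⁆ ∈ T) (h1 : ∀ x ∈ T, ∀ g ∈ Y, ⁅x, g⁆ ∈ B)
    (h2 : ∀ x ∈ B, ∀ g ∈ Y, ⁅x, g⁆ = 1) : Group.IsNilpotent Y := by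
  rw [Subgroup.nilpotent_iff_finite_descending_central_series]
  refine ⟨3, fun i => match i with
    | 0 => ⊤
    | 1 => T.subgroupOf Y
    | 2 => B.subgroupOf Y
    | _ => ⊥, ⟨rfl, ?_⟩, rfl⟩
  intro x n hx g
  match n with
  | 0 =>
    show ⁅x, g⁆ ∈ T.subgroupOf Y
    rw [Subgroup.mem_subgroupOf]
    exact h0 _ x.2 _ g.2
  | 1 =>
    show ⁅x, g⁆ ∈ B.subgroupOf Y
    rw [Subgroup.mem_subgroupOf]
    have hx' : (x : G) ∈ T := Subgroup.mem_subgroupOf.1 hx
    exact h1 _ hx' _ g.2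
  | 2 =>
    show ⁅x, g⁆ ∈ (⊥ : Subgroup Y)
    rw [Subgroup.mem_bot]
    have hx' : (x : G) ∈ B := Subgroup.mem_subgroupOf.1 hx
    apply Subtype.ext
    have := h2 _ hx' _ g.2
    simpa [commutatorElement_def] using this
  | (n + 3) =>
    have hx' : x = 1 := Subgroup.mem_bot.1 hx
    subst hx'
    show ⁅(1 : Y), g⁆ ∈ (⊥ : Subgroup Y)
    simp

/-- F-ascent: a normal subgroup of `C_G(B)` above `T` acting trivially on `T/B` equals `T`. -/
theorem IsMaxAbNormal.fitting_ascent [Finite G] [Group.IsSolvable G] (hB : IsMaxAbNormal B)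
    {N : Subgroup G} (hN : N.Normal) (hTN : tee B ≤ N) (hNC : N ≤ centralizer (B : Set G))
    (hcomm : ∀ n ∈ N, ∀ t ∈ tee B, ⁅n, t⁆ ∈ B) : N = tee B := by
  by_contra hne
  obtain ⟨Y, hYn, hTY, hYN, hYT, hYc⟩ := exists_abelian_step hB.tee_normal hN hTN hne
  apply hYT
  refine le_antisymm ?_ hTY
  have hnil : Group.IsNilpotent Y := by
    refine isNilpotent_of_chain (T := tee B) (B := B) ?_ ?_ ?_
    · intro x hx g hg
      exact hYc (Subgroup.commutator_mem_commutator hx hg)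
    · intro x hx g hg
      have := hcomm g (hYN hg) x hx
      rw [← commutatorElement_inv]
      exact inv_mem this
    · intro x hx g hg
      rw [commutatorElement_eq_one_iff_commute]
      exact mem_centralizer_iff'.1 (hNC (hYN hg)) x hx
  exact le_inf (Cfsg.Agent.Lib.Core.le_fittingSubgroup hYn hnil) (hYN.trans hNC)

/-- `C_G(B) = B` when `T = B`. -/
theorem IsMaxAbNormal.centralizer_eq_of_tee_eq [Finite G] [Group.IsSolvable G]
    (hB : IsMaxAbNormal B) (h : tee B = B) : centralizer (B : Set G) = B := by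
  have := hB.fitting_ascent (N := centralizer (B : Set G)) hB.centralizer_normal tee_le_centralizer
    le_rfl (by
      intro n hn t ht
      have ht' : t ∈ B := h ▸ ht
      have : ⁅n, t⁆ = 1 := by
        rw [commutatorElement_eq_one_iff_commute]
        exact ((mem_centralizer_iff'.1 hn) t ht').symm
      rw [this]; exact one_mem _)
  rw [this, h]

/-- `C_G(T) ≤ B` -/
theorem IsMaxAbNormal.centralizer_tee_le [Finite G] [Group.IsSolvable G] (hB : IsMaxAbNormal B) :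
    centralizer (tee B : Set G) ≤ B := by
  haveI := hB.tee_normal
  have hCB : centralizer (tee B : Set G) ≤ centralizer (B : Set G) :=
    Subgroup.centralizer_le hB.le_tee
  have key := hB.fitting_ascent (N := tee B ⊔ centralizer (tee B : Set G)) inferInstance le_sup_left
    (sup_le tee_le_centralizer hCB) (by
      intro n hn t ht
      have hn' : n ∈ ((tee B ⊔ centralizer (tee B : Set G) : Subgroup G) : Set G) := hn
      rw [Subgroup.mul_normal, Set.mem_mul] at hn'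
      obtain ⟨t₁, ht₁, k, hk, rfl⟩ := hn'
      have hkt : k * t = t * k := ((Subgroup.mem_centralizer_iff.1 hk) t ht).symm
      have e : ⁅t₁ * k, t⁆ = ⁅t₁, t⁆ := by
        simp only [commutatorElement_def]
        have : t₁ * k * t * (t₁ * k)⁻¹ = t₁ * t * t₁⁻¹ := by
          rw [mul_assoc t₁ k t, hkt]
          group
        rw [this]
      rw [e]
      exact hB.comm_mem' ht₁ ht)
  intro k hk
  have hkT : k ∈ tee B := by
    rw [← key]
    exact (le_sup_right : centralizer (tee B : Set G) ≤ _) hk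
  exact hB.mem_of_central hkT fun y hy => ((Subgroup.mem_centralizer_iff.1 hk) y hy).symm

/-- `g ∈ C_G(B)` acting trivially on `T/B` lies in `T`. -/
def stabT (B : Subgroup G) : Subgroup G where
  carrier := {g | g ∈ centralizer (B : Set G) ∧ ∀ t ∈ tee B, ⁅g, t⁆ ∈ B}
  mul_mem' := by
    rintro g₁ g₂ ⟨h1, h1'⟩ ⟨h2, h2'⟩
    refine ⟨mul_mem h1 h2, fun t ht => ?_⟩
    have e : ⁅g₁ * g₂, t⁆ = (g₁ * ⁅g₂, t⁆ * g₁⁻¹) * ⁅g₁, t⁆ := by
      simp only [commutatorElement_def]; group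
    rw [e]
    have hc : g₁ * ⁅g₂, t⁆ * g₁⁻¹ = ⁅g₂, t⁆ := by
      rw [← (mem_centralizer_iff'.1 h1) _ (h2' t ht)]
      group
    rw [hc]
    exact mul_mem (h2' t ht) (h1' t ht)
  one_mem' := ⟨one_mem _, fun t _ => by simp [one_mem]⟩
  inv_mem' := by
    rintro g ⟨h, h'⟩
    refine ⟨inv_mem h, fun t ht => ?_⟩
    have e : ⁅g⁻¹, t⁆ = g⁻¹ * ⁅g, t⁆⁻¹ * g := by
      simp only [commutatorElement_def]; group
    rw [e]
    have hi := inv_mem (h' t ht)
    rw [mul_assoc, (mem_centralizer_iff'.1 h) _ hi]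
    simpa using hi

theorem IsMaxAbNormal.stabT_normal (hB : IsMaxAbNormal B) : (stabT B).Normal := by
  haveI := hB.normal
  haveI := hB.tee_normal
  haveI := hB.centralizer_normal
  constructor
  rintro n ⟨h, h'⟩ g
  refine ⟨Subgroup.Normal.conj_mem inferInstance n h g, fun t ht => ?_⟩
  have ht' : g⁻¹ * t * g ∈ tee B := by
    simpa using Subgroup.Normal.conj_mem (inferInstance : (tee B).Normal) t ht g⁻¹
  have := Subgroup.Normal.conj_mem (inferInstance : B.Normal) _ (h' _ ht') g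
  convert this using 1
  simp only [commutatorElement_def]
  group

theorem IsMaxAbNormal.stabT_eq [Finite G] [Group.IsSolvable G] (hB : IsMaxAbNormal B) :
    stabT B = tee B := by
  refine hB.fitting_ascent hB.stabT_normal ?_ (fun g hg => hg.1) (fun n hn t ht => hn.2 t ht)
  intro t ht
  exact ⟨tee_le_centralizer ht, fun y hy => hB.comm_mem' ht hy⟩

end

end Cfsg.Agent.Lib.Huppert
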