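import Mathlib
import Cfsg.Agent.Lib.Huppert.Group

/-!
# The field generated by a maximal abelian normal subgroup

If `G` is transitive on the non-zero vectors of `V` and `B` is an abelian normal subgroup of `G`,
the algebra generated by `B` in `End V` is a field, over which `G` acts semilinearly.
-/

set_option autoImplicit false

namespace Cfsg.Agent.Lib.Huppert

open Subgroup

universe u v w

/-- The data of a group acting semilinearly on a vector space, with a maximal abelian normal
subgroup acting by scalars. -/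
structure SLData (K : Type u) (V : Type v) (G : Type w) [Field K] [AddCommGroup V] [Module K V]
    [Group G] where
  ρ : G →* Equiv.Perm V
  add : ∀ (g : G) (v w : V), ρ g (v + w) = ρ g v + ρ g w
  inj : Function.Injective ρ
  trans : ∀ v w : V, v ≠ 0 → w ≠ 0 → ∃ g, ρ g v = w
  σ : G →* RingAut K
  semi : ∀ (g : G) (a : K) (v : V), ρ g (a • v) = σ g a • ρ g v
  B : Subgroup G
  hB : IsMaxAbNormal B
  scal : B →* Kˣ
  hscal : ∀ (b : B) (v : V), ρ (b : G) v = (scal b : K) • v
  ker : ∀ g ∈ centralizer (B : Set G), σ g = 1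

section Core

variable {R : Type*} [CommRing R] {V : Type u} [AddCommGroup V] [Module R V]

/-- the annihilator in `L` of a vector -/
def annSet (L : Set (Module.End R V)) (x : V) : Set (Module.End R V) := {a | a ∈ L ∧ a x = 0}

theorem finite_end [Finite V] : Finite (Module.End R V) :=
  Finite.of_injective (fun f : V →ₗ[R] V => (f : V → V)) DFunLike.coe_injective

variable [Finite V] (L : Subalgebra R (Module.End R V))
  (hcomm : ∀ a ∈ L, ∀ b ∈ L, a * b = b * a)
  (htr : ∀ x y : V, x ≠ 0 → y ≠ 0 →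
    ∃ g : V ≃ₗ[R] V, g x = y ∧ ∀ a ∈ L, (g.toLinearMap ∘ₗ a ∘ₗ g.symm.toLinearMap) ∈ L)

include htr in
theorem annSet_ncard_le {x y : V} (hx : x ≠ 0) (hy : y ≠ 0) :
    (annSet (L : Set (Module.End R V)) x).ncard ≤ (annSet (L : Set (Module.End R V)) y).ncard := by
  haveI := finite_end (R := R) (V := V)
  obtain ⟨g, hg, hgL⟩ := htr x y hx hy
  refine Set.ncard_le_ncard_of_injOn (fun a => g.toLinearMap ∘ₗ a ∘ₗ g.symm.toLinearMap) ?_ ?_
    (Set.toFinite _)
  · rintro a ⟨ha, hax⟩
    refine ⟨hgL a ha, ?_⟩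
    rw [← hg]
    simp [hax]
  · intro a _ b _ hab
    ext v
    have := LinearMap.congr_fun hab (g v)
    simpa using this

include hcomm htr in
theorem annSet_eq {x y : V} (hx : x ≠ 0) (hy : y ≠ 0) :
    annSet (L : Set (Module.End R V)) x = annSet (L : Set (Module.End R V)) y := by
  haveI := finite_end (R := R) (V := V)
  have hsub : ∀ {u w : V}, u ≠ 0 → w ≠ 0 → annSet (L : Set (Module.End R V)) u ⊆ annSet (L : Set (Module.End R V)) w →
      annSet (L : Set (Module.End R V)) u = annSet (L : Set (Module.End R V)) w := by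
    intro u w hu hw h
    exact Set.eq_of_subset_of_ncard_le h (annSet_ncard_le L htr hw hu) (Set.toFinite _)
  by_cases h : ∃ a ∈ L, ∃ b ∈ L, a x = b y ∧ a x ≠ 0
  · obtain ⟨a, ha, b, hb, hab, hne⟩ := h
    have h1 : annSet (L : Set (Module.End R V)) x ⊆ annSet (L : Set (Module.End R V)) (a x) := by
      rintro c ⟨hc, hcx⟩
      refine ⟨hc, ?_⟩
      have := LinearMap.congr_fun (hcomm c hc a ha) x
      simp only [Module.End.mul_apply] at this
      rw [this, hcx, map_zero]
    have h2 : annSet (L : Set (Module.End R V)) y ⊆ annSet (L : Set (Module.End R V)) (a x) := by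
      rintro c ⟨hc, hcy⟩
      refine ⟨hc, ?_⟩
      have := LinearMap.congr_fun (hcomm c hc b hb) y
      simp only [Module.End.mul_apply] at this
      rw [hab, this, hcy, map_zero]
    rw [hsub hx hne h1, hsub hy hne h2]
  · push Not at h
    have hxy : x + y ≠ 0 := by
      intro h0
      have : x = -y := eq_neg_of_add_eq_zero_left h0
      have h3 := h 1 (one_mem L) (-1) (neg_mem (one_mem L))
      apply hx
      apply h3
      simp [this]
    have h1 : annSet (L : Set (Module.End R V)) (x + y) ⊆ annSet (L : Set (Module.End R V)) x := by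
      rintro c ⟨hc, hcxy⟩
      refine ⟨hc, ?_⟩
      rw [map_add] at hcxy
      apply h c hc (-c) (neg_mem hc)
      simpa using eq_neg_of_add_eq_zero_left hcxy
    have h2 : annSet (L : Set (Module.End R V)) (x + y) ⊆ annSet (L : Set (Module.End R V)) y := by
      rintro c ⟨hc, hcxy⟩
      refine ⟨hc, ?_⟩
      rw [map_add] at hcxy
      have h3 := h (-c) (neg_mem hc) c hc (by
        simpa using (eq_neg_of_add_eq_zero_right hcxy).symm)
      have h4 : c x = 0 := by simpa using h3
      rw [h4, zero_add] at hcxy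
      exact hcxy
    rw [← hsub hxy hx h1, ← hsub hxy hy h2]

include hcomm htr in
theorem eq_zero_of_apply_eq_zero {a : Module.End R V} (ha : a ∈ L) {x : V} (hx : x ≠ 0)
    (hax : a x = 0) : a = 0 := by
  ext y
  by_cases hy : y = 0
  · simp [hy]
  · have : a ∈ annSet (L : Set (Module.End R V)) y := by
      rw [← annSet_eq L hcomm htr hx hy]
      exact ⟨ha, hax⟩
    simpa using this.2

end Core

/-- A commutative subalgebra without zero divisors in a finite ring is the image of a field. -/
theorem exists_field_of_subalgebra {R : Type*} [CommRing R] {E : Type u} [Ring E] [Algebra R E]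
    (L : Subalgebra R E) [Finite L] [Nontrivial E]
    (hcomm : ∀ a ∈ L, ∀ b ∈ L, a * b = b * a)
    (hnzd : ∀ a ∈ L, ∀ b ∈ L, a * b = 0 → a = 0 ∨ b = 0) :
    ∃ (K : Type u) (_ : Field K) (_ : Finite K) (f : K →+* E), Set.range f = (L : Set E) := by
  letI cr : CommRing L := { L.toRing with mul_comm := fun a b => Subtype.ext (hcomm _ a.2 _ b.2) }
  haveI : Nontrivial L := ⟨⟨0, 1, fun h => zero_ne_one (congrArg Subtype.val h)⟩⟩
  haveI : NoZeroDivisors L := ⟨fun {a b} h => by
    have h' : (a : E) * (b : E) = 0 := congrArg Subtype.val h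
    rcases hnzd _ a.2 _ b.2 h' with h1 | h1
    · exact Or.inl (Subtype.ext h1)
    · exact Or.inr (Subtype.ext h1)⟩
  haveI : IsDomain L := NoZeroDivisors.to_isDomain L
  have hF : IsField L := Finite.isField_of_domain L
  letI F : Field L := hF.toField
  refine ⟨L, F, inferInstance, ⟨⟨⟨Subtype.val, rfl⟩, fun _ _ => rfl⟩, rfl, fun _ _ => rfl⟩, ?_⟩
  ext x
  constructor
  · rintro ⟨a, rfl⟩
    exact a.2
  · intro hx
    exact ⟨⟨x, hx⟩, rfl⟩


section FieldStep

variable (q : ℕ) [Fact q.Prime] {V : Type u} [AddCommGroup V] [Module (ZMod q) V] [Finite V]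
  [Nontrivial V] {G : Type w} [Group G]

/-- The field step. -/
theorem field_step (ρ : G →* (V ≃ₗ[ZMod q] V)) (hρ : Function.Injective ρ)
    (htrans : ∀ v w : V, v ≠ 0 → w ≠ 0 → ∃ g : G, ρ g v = w)
    (B : Subgroup G) (hB : IsMaxAbNormal B) :
    ∃ (K : Type u) (_ : Field K) (_ : Finite K) (_ : Module K V) (D : SLData K V G),
      (∀ g v, D.ρ g v = ρ g v) ∧ D.B = B ∧ CharP K q := by
  classical
  haveI hfinE := finite_end (R := ZMod q) (V := V)
  haveI := hB.normal
  set S : Set (Module.End (ZMod q) V) :=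
    (fun b : G => ((ρ b : V ≃ₗ[ZMod q] V) : V →ₗ[ZMod q] V)) '' (B : Set G) with hSdef
  have hρmul : ∀ g h : G, ((ρ (g * h) : V ≃ₗ[ZMod q] V) : V →ₗ[ZMod q] V)
      = (ρ g : V →ₗ[ZMod q] V) * (ρ h : V →ₗ[ZMod q] V) := by
    intro g h
    ext v
    simp
  have hS : ∀ a ∈ S, ∀ b ∈ S, a * b = b * a := by
    rintro _ ⟨a, ha, rfl⟩ _ ⟨b, hb, rfl⟩
    simp only [← hρmul]
    rw [hB.comm a ha b hb]
  set L := Algebra.adjoin (ZMod q) S with hLdef
  have hcomm : ∀ a ∈ L, ∀ b ∈ L, a * b = b * a := by
    intro a ha b hb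
    have := (Algebra.isMulCommutative_adjoin (ZMod q) hS).is_comm.comm ⟨a, ha⟩ ⟨b, hb⟩
    exact congrArg Subtype.val this
  have hconjS : ∀ (g : G), ∀ a ∈ S,
      ((ρ g).toLinearMap ∘ₗ a ∘ₗ (ρ g).symm.toLinearMap) ∈ S := by
    rintro g _ ⟨b, hb, rfl⟩
    refine ⟨g * b * g⁻¹, Subgroup.Normal.conj_mem inferInstance b hb g, ?_⟩
    ext v
    have : (ρ g).symm = ρ g⁻¹ := by
      rw [map_inv]; rfl
    simp [this]
  have hmem : ∀ (g : G), ∀ a ∈ L,
      ((ρ g).toLinearMap ∘ₗ a ∘ₗ (ρ g).symm.toLinearMap) ∈ L := by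
    intro g a ha
    induction ha using Algebra.adjoin_induction with
    | mem x hx => exact Algebra.subset_adjoin (hconjS g x hx)
    | algebraMap r =>
      convert (L.algebraMap_mem r) using 1
      ext v
      simp [Module.algebraMap_end_apply]
    | add x y _ _ hx hy =>
      convert add_mem hx hy using 1
      ext v
      simp
    | mul x y _ _ hx hy =>
      convert mul_mem hx hy using 1
      ext v
      simp
  have htr : ∀ x y : V, x ≠ 0 → y ≠ 0 →
      ∃ g : V ≃ₗ[ZMod q] V, g x = y ∧ ∀ a ∈ L, (g.toLinearMap ∘ₗ a ∘ₗ g.symm.toLinearMap) ∈ L := by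
    intro x y hx hy
    obtain ⟨g, hg⟩ := htrans x y hx hy
    exact ⟨ρ g, hg, hmem g⟩
  have hzero := fun a ha x hx hax => eq_zero_of_apply_eq_zero L hcomm htr (a := a) ha (x := x) hx hax
  have hnzd : ∀ a ∈ L, ∀ b ∈ L, a * b = 0 → a = 0 ∨ b = 0 := by
    intro a ha b hb hab
    by_cases hb0 : b = 0
    · exact Or.inr hb0
    · left
      obtain ⟨x, hx⟩ : ∃ x, b x ≠ 0 := by
        by_contra hcon
        push Not at hcon
        exact hb0 (LinearMap.ext hcon)
      refine hzero a ha (b x) hx ?_
      have := LinearMap.congr_fun hab x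
      simpa using this
  haveI : Finite L := Subtype.finite
  obtain ⟨K, hK, hKfin, f, hf⟩ := exists_field_of_subalgebra L hcomm hnzd
  refine ⟨K, hK, hKfin, Module.compHom V f, ?_⟩
  letI : Module K V := Module.compHom V f
  have hsmul : ∀ (a : K) (v : V), a • v = f a v := fun _ _ => rfl
  have hfinj : Function.Injective f := f.injective
  have hfL : ∀ a, f a ∈ L := fun a => by
    have : f a ∈ Set.range f := ⟨a, rfl⟩
    rw [hf] at this
    exact this
  have hLf : ∀ c ∈ L, ∃ a, f a = c := fun c hc => by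
    have : c ∈ Set.range f := by
      rw [hf]
      exact hc
    exact this
  have hτ : ∀ (g : G) (a : K), ∃ a', f a' = (ρ g).toLinearMap ∘ₗ f a ∘ₗ (ρ g).symm.toLinearMap :=
    fun g a => hLf _ (hmem g _ (hfL a))
  choose τ hτ using hτ
  have hτhom : ∀ g : G, ∃ e : RingAut K, ∀ a, e a = τ g a := by
    intro g
    have hone : τ g 1 = 1 := by
      apply hfinj
      rw [hτ, map_one]
      ext v
      simp
    have hmul : ∀ a b, τ g (a * b) = τ g a * τ g b := by
      intro a b
      apply hfinj
      rw [map_mul, hτ, hτ, hτ, map_mul]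
      ext v
      simp
    have hzero' : τ g 0 = 0 := by
      apply hfinj
      rw [hτ, map_zero]
      ext v
      simp
    have hadd : ∀ a b, τ g (a + b) = τ g a + τ g b := by
      intro a b
      apply hfinj
      rw [map_add, hτ, hτ, hτ, map_add]
      ext v
      simp
    let φ : K →+* K := ⟨⟨⟨τ g, hone⟩, hmul⟩, hzero', hadd⟩
    have hbij : Function.Bijective φ :=
      ⟨φ.injective, Finite.injective_iff_surjective.1 φ.injective⟩
    exact ⟨RingEquiv.ofBijective φ hbij, fun _ => rfl⟩
  choose σ₀ hσ₀ using hτhom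
  have hσmul : ∀ g h : G, σ₀ (g * h) = σ₀ g * σ₀ h := by
    intro g h
    refine RingEquiv.ext fun a => ?_
    apply hfinj
    have e1 : (σ₀ g * σ₀ h) a = τ g (τ h a) := by
      show σ₀ g (σ₀ h a) = _
      rw [hσ₀, hσ₀]
    rw [e1, hσ₀, hτ, hτ, hτ]
    ext v
    have : (ρ (g * h)).symm = (ρ h).symm * (ρ g).symm := by
      rw [map_mul]
      rfl
    simp [this]
    rfl
  have hσone : σ₀ 1 = 1 := by
    have := hσmul 1 1
    rw [mul_one] at this
    exact (mul_eq_left.1 this.symm)
  -- the scalars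
  have hscal₀ : ∀ b : B, ∃ a, f a = ((ρ (b : G) : V ≃ₗ[ZMod q] V) : V →ₗ[ZMod q] V) := fun b =>
    hLf _ (Algebra.subset_adjoin ⟨b, b.2, rfl⟩)
  choose scal₀ hscal₀ using hscal₀
  have hone : scal₀ 1 = 1 := by
    apply hfinj
    rw [hscal₀, map_one]
    ext v
    simp
  have hmul : ∀ a b, scal₀ (a * b) = scal₀ a * scal₀ b := by
    intro a b
    apply hfinj
    rw [map_mul, hscal₀, hscal₀, hscal₀]
    ext v
    simp
  let scal₁ : B →* K := ⟨⟨scal₀, hone⟩, hmul⟩
  refine ⟨{
      ρ := ⟨⟨fun g => (ρ g).toEquiv, ?_⟩, ?_⟩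
      add := fun g v w => map_add (ρ g) v w
      inj := ?_
      trans := htrans
      σ := MonoidHom.mk' σ₀ hσmul
      semi := ?_
      B := B
      hB := hB
      scal := scal₁.toHomUnits
      hscal := ?_
      ker := ?_ }, ?_, rfl, ?_⟩
  · ext v
    simp
  · intro g h
    ext v
    simp
  · intro g h hgh
    apply hρ
    ext v
    exact Equiv.congr_fun hgh v
  · intro g a v
    show ρ g (f a v) = f (σ₀ g a) (ρ g v)
    rw [hσ₀, hτ]
    simp
  · intro b v
    show ρ (b : G) v = f (scal₀ b) v
    rw [hscal₀]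
    rfl
  · intro g hg
    show σ₀ g = 1
    refine RingEquiv.ext fun a => ?_
    apply hfinj
    rw [hσ₀, hτ]
    show _ = f a
    have hgen : ∀ c ∈ L, ((ρ g).toLinearMap ∘ₗ c ∘ₗ (ρ g).symm.toLinearMap) = c := by
      intro c hc
      induction hc using Algebra.adjoin_induction with
      | mem x hx =>
        obtain ⟨b, hb, rfl⟩ := hx
        ext v
        have hgb : g * b = b * g := ((mem_centralizer_iff.1 hg) b hb).symm
        have e : (ρ g) ((ρ b) ((ρ g).symm v)) = (ρ (g * b)) ((ρ g).symm v) := by simp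
        simp only [LinearMap.comp_apply, LinearEquiv.coe_coe]
        rw [e, hgb]
        simp
      | algebraMap r =>
        ext v
        simp [Module.algebraMap_end_apply]
      | add x y _ _ hx hy =>
        ext v
        have h1 := LinearMap.congr_fun hx v
        have h2 := LinearMap.congr_fun hy v
        simp only [LinearMap.comp_apply, LinearEquiv.coe_coe, LinearMap.add_apply, map_add] at h1 h2 ⊢
        rw [h1, h2]
      | mul x y _ _ hx hy =>
        ext v
        have h1 := LinearMap.congr_fun hx (y v)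
        have h2 := LinearMap.congr_fun hy v
        simp only [LinearMap.comp_apply, LinearEquiv.coe_coe, Module.End.mul_apply] at h1 h2 ⊢
        rw [← h1, ← h2]
        simp
    exact hgen _ (hfL a)
  · intro g v
    rfl
  · rw [CharP.charP_iff_prime_eq_zero (Fact.out : q.Prime)]
    apply hfinj
    rw [map_natCast, map_zero]
    ext v
    simp
    rw [← Nat.cast_smul_eq_nsmul (ZMod q) q v, ZMod.natCast_self, zero_smul]

end FieldStep

end Cfsg.Agent.Lib.Huppert
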