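import Mathlib
import Cfsg.Agent.Lib.Huppert.Field
import Cfsg.Agent.Lib.Huppert.Eigen

/-!
# Semilinear data: basic consequences
-/

set_option autoImplicit false
set_option linter.unusedSectionVars false

namespace Cfsg.Agent.Lib.Huppert

open Subgroup Module
open scoped commutatorElement

universe u v w

namespace SLData

variable {K : Type u} {V : Type v} {G : Type w} [Field K] [AddCommGroup V] [Module K V] [Group G]
  (D : SLData K V G)

@[simp] theorem ρ_mul (g h : G) (v : V) : D.ρ (g * h) v = D.ρ g (D.ρ h v) := by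
  rw [map_mul]; rfl

@[simp] theorem ρ_one (v : V) : D.ρ 1 v = v := by
  rw [map_one]; rfl

@[simp] theorem ρ_inv_self (g : G) (v : V) : D.ρ g⁻¹ (D.ρ g v) = v := by
  rw [← ρ_mul, inv_mul_cancel, ρ_one]

@[simp] theorem ρ_self_inv (g : G) (v : V) : D.ρ g (D.ρ g⁻¹ v) = v := by
  rw [← ρ_mul, mul_inv_cancel, ρ_one]

@[simp] theorem ρ_zero (g : G) : D.ρ g (0 : V) = 0 := by
  have := D.add g 0 0
  simpa using this

theorem ρ_eq_zero {g : G} {v : V} : D.ρ g v = 0 ↔ v = 0 := by
  constructor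
  · intro h
    have := D.ρ_inv_self g v
    rw [h, ρ_zero] at this
    exact this.symm
  · rintro rfl
    simp

theorem ρ_neg (g : G) (v : V) : D.ρ g (-v) = - D.ρ g v := by
  have := D.add g v (-v)
  rw [add_neg_cancel, ρ_zero] at this
  exact (neg_eq_of_add_eq_zero_right this.symm).symm

/-- the scalar of an element of `B` -/
def sc (b : G) (hb : b ∈ D.B) : Kˣ := D.scal ⟨b, hb⟩

theorem ρ_sc {b : G} (hb : b ∈ D.B) (v : V) : D.ρ b v = (D.sc b hb : K) • v := D.hscal ⟨b, hb⟩ v

theorem sc_mul {a b : G} (ha : a ∈ D.B) (hb : b ∈ D.B) :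
    D.sc (a * b) (mul_mem ha hb) = D.sc a ha * D.sc b hb := by
  have : (⟨a * b, mul_mem ha hb⟩ : D.B) = ⟨a, ha⟩ * ⟨b, hb⟩ := rfl
  simp only [sc, this, map_mul]

theorem sc_pow {a : G} (ha : a ∈ D.B) (n : ℕ) :
    D.sc (a ^ n) (pow_mem ha n) = D.sc a ha ^ n := by
  have : (⟨a ^ n, pow_mem ha n⟩ : D.B) = ⟨a, ha⟩ ^ n := rfl
  simp only [sc, this, map_pow]

theorem sc_one : D.sc 1 (one_mem _) = 1 := by
  have : (⟨1, one_mem _⟩ : D.B) = 1 := rfl
  simp only [sc, this, map_one]

section Finite1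

variable [Nontrivial V]

theorem eq_one_of_sc_eq_one {b : G} {hb : b ∈ D.B} (h : D.sc b hb = 1) : b = 1 := by
  apply D.inj
  ext v
  rw [D.ρ_sc hb, h]
  simp

theorem scal_injective : Function.Injective D.scal := by
  rw [injective_iff_map_eq_one]
  rintro ⟨b, hb⟩ h
  have := D.eq_one_of_sc_eq_one (b := b) (hb := hb) h
  exact Subtype.ext this

theorem sc_inj {a b : G} {ha : a ∈ D.B} {hb : b ∈ D.B} (h : D.sc a ha = D.sc b hb) : a = b := by
  have := D.scal_injective h
  exact congrArg Subtype.val this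

end Finite1

/-- `C_G(B)` acts linearly. -/
def lin : centralizer (D.B : Set G) →* Module.End K V where
  toFun g :=
    { toFun := D.ρ g
      map_add' := D.add g
      map_smul' := by
        intro a v
        rw [D.semi, D.ker g g.2]
        rfl }
  map_one' := by
    ext v
    simp
  map_mul' := by
    intro g h
    ext v
    simp

@[simp] theorem lin_apply (g : centralizer (D.B : Set G)) (v : V) : D.lin g v = D.ρ g v := rfl

theorem mem_C_of_mem_tee {t : G} (ht : t ∈ tee D.B) : t ∈ centralizer (D.B : Set G) :=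
  tee_le_centralizer ht

/-- Commutators of `C_G(B)` lying in `B` have scalars with `m`-th power one. -/
theorem sc_comm_pow [Module.Finite K V] (x y : centralizer (D.B : Set G)) (h : ⁅(x : G), (y : G)⁆ ∈ D.B) :
    D.sc _ h ^ finrank K V = 1 := by
  have e1 : D.lin ⁅x, y⁆ = (D.sc _ h : K) • (1 : Module.End K V) := by
    ext v
    rw [lin_apply]
    have hc : ((⁅x, y⁆ : centralizer (D.B : Set G)) : G) = ⁅(x : G), (y : G)⁆ := rfl
    rw [hc, D.ρ_sc h]
    simp
  have e2 : LinearMap.det (D.lin ⁅x, y⁆) = 1 := by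
    let f : centralizer (D.B : Set G) →* K := (LinearMap.det (A := K) (M := V)).comp D.lin
    show f ⁅x, y⁆ = 1
    rw [commutatorElement_def, map_mul, map_mul, map_mul, mul_comm (f x), mul_assoc (f y),
      ← map_mul, mul_inv_cancel, map_one, mul_one, ← map_mul, mul_inv_cancel, map_one]
  rw [e1, LinearMap.det_smul, map_one, mul_one] at e2
  exact Units.ext (by simpa using e2)

section Finite2

variable [Finite K] [Finite V] [Nontrivial V]

include D in
/-- Transitivity: `|V| - 1` divides `|G|`. -/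
theorem card_sub_one_dvd [Finite G] : Nat.card V - 1 ∣ Nat.card G := by
  classical
  letI : MulAction G V := MulAction.compHom V D.ρ
  have hsmul : ∀ (g : G) (v : V), g • v = D.ρ g v := fun _ _ => rfl
  obtain ⟨v₀, hv₀⟩ : ∃ v : V, v ≠ 0 := exists_ne 0
  have hO : MulAction.orbit G v₀ = ({0} : Set V)ᶜ := by
    ext w
    simp only [MulAction.mem_orbit_iff, Set.mem_compl_iff, Set.mem_singleton_iff, hsmul]
    constructor
    · rintro ⟨g, rfl⟩
      exact fun h => hv₀ (D.ρ_eq_zero.1 h)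
    · intro hw
      exact D.trans v₀ w hv₀ hw
  have h1 := MulAction.index_stabilizer G v₀
  rw [hO, Set.ncard_compl, Set.ncard_singleton] at h1
  rw [← h1]
  exact (MulAction.stabilizer G v₀).index_dvd_card

theorem card_B_dvd : Nat.card D.B ∣ Nat.card K - 1 := by
  rw [← Nat.card_units]
  exact Subgroup.card_dvd_of_injective D.scal D.scal_injective

theorem isCyclic_B : IsCyclic D.B := by
  haveI : Finite D.B := Finite.of_injective D.scal D.scal_injective
  let f : D.B →* K := (Units.coeHom K).comp D.scal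
  exact isCyclic_of_subgroup_isDomain f (Units.val_injective.comp D.scal_injective)

theorem card_eq_pow_finrank : Nat.card V = Nat.card K ^ finrank K V :=
  Module.natCard_eq_pow_finrank

end Finite2


section T

variable [Finite K] [Finite V] [Nontrivial V] [Finite G]

/-- Commutators in `T` have scalars whose `m`-th power is one, so they have order dividing `m`. -/
theorem comm_pow_finrank {x y : G} (hx : x ∈ tee D.B) (hy : y ∈ tee D.B) :
    ⁅x, y⁆ ^ finrank K V = 1 := by
  have h := D.hB.comm_mem' hx hy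
  have h1 := D.sc_comm_pow ⟨x, D.mem_C_of_mem_tee hx⟩ ⟨y, D.mem_C_of_mem_tee hy⟩ h
  rw [← D.sc_pow] at h1
  exact D.eq_one_of_sc_eq_one h1

/-- Powers in commutators. -/
theorem comm_pow_left' {x y : G} (hx : x ∈ tee D.B) (hy : y ∈ tee D.B) (n : ℕ) :
    ⁅x ^ n, y⁆ = ⁅x, y⁆ ^ n :=
  Cfsg.Agent.Lib.Transfer.comm_pow_left (D.hB.commute_comm hx hy hx) n

theorem comm_pow_right' {x y : G} (hx : x ∈ tee D.B) (hy : y ∈ tee D.B) (n : ℕ) :
    ⁅x, y ^ n⁆ = ⁅x, y⁆ ^ n :=
  Cfsg.Agent.Lib.Transfer.comm_pow_right (D.hB.commute_comm hx hy hy) n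

theorem comm_eq_one_of_mem_B {x y : G} (hx : x ∈ D.B) (hy : y ∈ tee D.B) : ⁅x, y⁆ = 1 := by
  rw [commutatorElement_eq_one_iff_commute]
  exact comm_of_mem_tee hx hy

theorem comm_eq_one_of_mem_B' {x y : G} (hx : x ∈ tee D.B) (hy : y ∈ D.B) : ⁅x, y⁆ = 1 := by
  rw [commutatorElement_eq_one_iff_commute]
  exact (comm_of_mem_tee hy hx).symm

/-- non-central element -/
theorem exists_comm_ne_one {x : G} (hx : x ∈ tee D.B) (hxB : x ∉ D.B) :
    ∃ y ∈ tee D.B, ⁅x, y⁆ ≠ 1 := by
  by_contra h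
  push Not at h
  apply hxB
  refine D.hB.mem_of_central hx fun y hy => ?_
  exact commutatorElement_eq_one_iff_commute.1 (h y hy)

/-- Good primes divide `m` and `|B|`. -/
theorem good_prime {r : ℕ} (hr : r.Prime) {x : G} (hx : x ∈ tee D.B) (hxB : x ∉ D.B)
    (hxr : x ^ r ∈ D.B) : r ∣ finrank K V ∧ r ∣ Nat.card D.B := by
  haveI : Fact r.Prime := ⟨hr⟩
  obtain ⟨y, hy, hne⟩ := D.exists_comm_ne_one hx hxB
  have hz : ⁅x, y⁆ ^ r = 1 := by
    rw [← D.comm_pow_left' hx hy]
    exact D.comm_eq_one_of_mem_B hxr hy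
  have ho : orderOf ⁅x, y⁆ = r := orderOf_eq_prime hz hne
  constructor
  · rw [← ho]
    exact orderOf_dvd_of_pow_eq_one (D.comm_pow_finrank hx hy)
  · have hzB := D.hB.comm_mem' hx hy
    have : orderOf (⟨⁅x, y⁆, hzB⟩ : D.B) = r := by
      rw [← ho]
      exact Subgroup.orderOf_mk _ _
    rw [← this]
    exact orderOf_dvd_natCard _

/-- Class two: the commutator map is a homomorphism in the first variable. -/
theorem comm_mul_left {x y t : G} (hx : x ∈ tee D.B) (hy : y ∈ tee D.B) (ht : t ∈ tee D.B) :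
    ⁅x * y, t⁆ = ⁅x, t⁆ * ⁅y, t⁆ := by
  have e : ⁅x * y, t⁆ = (x * ⁅y, t⁆ * x⁻¹) * ⁅x, t⁆ := by
    simp only [commutatorElement_def]; group
  have hc : x * ⁅y, t⁆ * x⁻¹ = ⁅y, t⁆ := by
    rw [(D.hB.commute_comm hy ht hx).symm.eq]
    group
  rw [e, hc, (D.hB.commute_comm hy ht (D.hB.le_tee (D.hB.comm_mem' hx ht))).eq]

theorem comm_mul_right {x y t : G} (hx : x ∈ tee D.B) (hy : y ∈ tee D.B) (ht : t ∈ tee D.B) :
    ⁅t, x * y⁆ = ⁅t, x⁆ * ⁅t, y⁆ := by
  have e : ⁅t, x * y⁆ = ⁅t, x⁆ * (x * ⁅t, y⁆ * x⁻¹) := by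
    simp only [commutatorElement_def]; group
  have hc : x * ⁅t, y⁆ * x⁻¹ = ⁅t, y⁆ := by
    rw [(D.hB.commute_comm ht hy hx).symm.eq]
    group
  rw [e, hc]

theorem sc_congr {a b : G} (h : a = b) (ha : a ∈ D.B) (hb : b ∈ D.B) : D.sc a ha = D.sc b hb := by
  subst h; rfl

/-- The character of `T` attached to `t`. -/
noncomputable def chi (t : tee D.B) : tee D.B →* K where
  toFun y := (D.sc ⁅(y : G), (t : G)⁆ (D.hB.comm_mem' y.2 t.2) : K)
  map_one' := by
    have h : ⁅((1 : tee D.B) : G), (t : G)⁆ = 1 := by simp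
    rw [D.sc_congr h _ (one_mem _), D.sc_one]
    rfl
  map_mul' := by
    intro x y
    have h := D.comm_mul_left x.2 y.2 t.2
    show ((D.sc ⁅(x : G) * (y : G), (t : G)⁆ _ : Kˣ) : K) = _
    rw [D.sc_congr h _ (mul_mem (D.hB.comm_mem' x.2 t.2) (D.hB.comm_mem' y.2 t.2)), D.sc_mul]
    rfl

theorem chi_apply (t y : tee D.B) :
    D.chi t y = (D.sc ⁅(y : G), (t : G)⁆ (D.hB.comm_mem' y.2 t.2) : K) := rfl

theorem conj_apply (t y : tee D.B) (v : V) :
    D.ρ y (D.ρ t (D.ρ (y : G)⁻¹ v)) = D.chi t y • D.ρ t v := by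
  rw [chi_apply, ← D.ρ_sc, ← ρ_mul, ← ρ_mul, ← ρ_mul]
  congr 2
  simp only [commutatorElement_def]
  group

/-- The bound `|T/B| ≤ m²`. -/
theorem index_le : (D.B.subgroupOf (tee D.B)).index ≤ finrank K V ^ 2 := by
  classical
  haveI : Module.Finite K V := Module.Finite.of_finite
  haveI : Finite (tee D.B) := inferInstance
  set A := tee D.B ⧸ D.B.subgroupOf (tee D.B) with hA
  haveI : Fintype A := Fintype.ofFinite A
  let rep : A → tee D.B := Quotient.out
  have hrep : ∀ i : A, (rep i : tee D.B ⧸ D.B.subgroupOf (tee D.B)) = i := fun i => Quotient.out_eq' i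
  have hchi : Function.Injective (fun i : A => D.chi (rep i)) := by
    intro i j h
    have h1 : ∀ y : tee D.B, ⁅(y : G), (rep i : G)⁆ = ⁅(y : G), (rep j : G)⁆ := fun y =>
      D.sc_inj (Units.ext (DFunLike.congr_fun h y))
    rw [← hrep i, ← hrep j, QuotientGroup.eq, Subgroup.mem_subgroupOf]
    refine D.hB.mem_of_central (by
      have := ((rep i)⁻¹ * rep j).2
      simpa using this) fun y hy => ?_
    have h2 := h1 ⟨y, hy⟩
    simp only [commutatorElement_def] at h2
    have h3 : y * (rep i : G) * y⁻¹ = y * (rep j : G) * y⁻¹ * (rep j : G)⁻¹ * (rep i : G) := by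
      rw [← h2]; group
    have h4 : (y * (rep i : G)⁻¹ * y⁻¹) = (rep i : G)⁻¹ * (rep j : G) * (y * (rep j : G)⁻¹ * y⁻¹) := by
      have := congrArg (·⁻¹) h3
      simp only [mul_inv_rev, inv_inv] at this
      calc y * (rep i : G)⁻¹ * y⁻¹ = y * ((rep i : G)⁻¹ * y⁻¹) := by group
        _ = _ := by rw [this]; group
    simp only [coe_mul, InvMemClass.coe_inv]
    calc ((rep i : G)⁻¹ * (rep j : G)) * y = (rep i : G)⁻¹ * (rep j : G) * (y * (rep j : G)⁻¹ * y⁻¹) * (y * (rep j : G) * y⁻¹) * y := by group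
      _ = y * (rep i : G)⁻¹ * y⁻¹ * (y * (rep j : G) * y⁻¹) * y := by rw [h4]
      _ = y * ((rep i : G)⁻¹ * (rep j : G)) := by group
  have hLI : LinearIndependent K (fun i : A => D.lin ⟨(rep i : G), tee_le_centralizer (rep i).2⟩) := by
    rw [Fintype.linearIndependent_iff]
    intro c hc j
    obtain ⟨v₀, hv₀⟩ : ∃ v : V, v ≠ 0 := exists_ne 0
    have hw : D.ρ (rep j : G) v₀ ≠ 0 := fun h => hv₀ (D.ρ_eq_zero.1 h)
    obtain ⟨φ, hφ⟩ : ∃ φ : Module.Dual K V, φ (D.ρ (rep j : G) v₀) ≠ 0 := by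
      by_contra hcon
      push Not at hcon
      exact hw ((Module.forall_dual_apply_eq_zero_iff K _).1 hcon)
    have hsum : ∀ y : tee D.B, ∑ i : A, (c i * φ (D.ρ (rep i : G) v₀)) * D.chi (rep i) y = 0 := by
      intro y
      have h1 := LinearMap.congr_fun hc (D.ρ (y : G)⁻¹ v₀)
      have h2 : D.ρ y (∑ i : A, c i • D.ρ (rep i : G) (D.ρ (y : G)⁻¹ v₀)) = 0 := by
        have : (∑ i : A, c i • D.lin ⟨(rep i : G), tee_le_centralizer (rep i).2⟩) (D.ρ (y : G)⁻¹ v₀)
            = ∑ i : A, c i • D.ρ (rep i : G) (D.ρ (y : G)⁻¹ v₀) := by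
          simp [LinearMap.sum_apply]
        rw [← this, h1]
        simp
      have h3 : ∀ (S : Finset A), D.ρ y (∑ i ∈ S, c i • D.ρ (rep i : G) (D.ρ (y : G)⁻¹ v₀))
          = ∑ i ∈ S, (c i * D.chi (rep i) y) • D.ρ (rep i : G) v₀ := by
        intro S
        induction S using Finset.induction_on with
        | empty => simp
        | insert a S ha ih =>
          rw [Finset.sum_insert ha, Finset.sum_insert ha, D.add, ih]
          congr 1
          have hlin := (D.lin ⟨(y : G), tee_le_centralizer y.2⟩).map_smul (c a)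
            (D.ρ (rep a : G) (D.ρ (y : G)⁻¹ v₀))
          simp only [lin_apply] at hlin
          rw [hlin, D.conj_apply (rep a) y v₀, smul_smul]
      rw [h3] at h2
      have h4 := congrArg φ h2
      rw [map_sum, map_zero] at h4
      rw [← h4]
      refine Finset.sum_congr rfl fun i _ => ?_
      rw [map_smul, smul_eq_mul]
      ring
    have hLIchi := (linearIndependent_monoidHom (tee D.B) K).comp _ hchi
    have hzero := Fintype.linearIndependent_iff.1 hLIchi
      (fun i => c i * φ (D.ρ (rep i : G) v₀)) (by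
        funext y
        have := hsum y
        simpa [Finset.sum_apply, mul_comm] using this) j
    exact (mul_eq_zero.1 hzero).resolve_right hφ
  have h1 := hLI.fintype_card_le_finrank
  rw [Module.finrank_linearMap] at h1
  rw [Subgroup.index, Nat.card_eq_fintype_card, pow_two]
  exact h1

/-- The key dimension estimate for a non-central element of prime order. -/
theorem fix_key {r : ℕ} (hr : r.Prime) {t : G} (ht : t ∈ tee D.B) (htB : t ∉ D.B) (htr : t ^ r = 1) :
    finrank K (Module.End.eigenspace (D.lin ⟨t, tee_le_centralizer ht⟩) 1) ≠ 0 ∧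
      r * finrank K (Module.End.eigenspace (D.lin ⟨t, tee_le_centralizer ht⟩) 1) ≤ finrank K V := by
  haveI : Fact r.Prime := ⟨hr⟩
  haveI : NeZero r := ⟨hr.ne_zero⟩
  haveI : Module.Finite K V := Module.Finite.of_finite
  obtain ⟨y, hy, hne⟩ := D.exists_comm_ne_one ht htB
  have hzB := D.hB.comm_mem' ht hy
  have hz : ⁅t, y⁆ ^ r = 1 := by
    rw [← D.comm_pow_left' ht hy, htr]
    simp
  have hξne : ((D.sc _ hzB : Kˣ) : K) ≠ 1 := by
    intro h
    exact hne (D.eq_one_of_sc_eq_one (Units.ext h))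
  have hξr : ((D.sc _ hzB : Kˣ) : K) ^ r = 1 := by
    have h1 := D.sc_pow hzB r
    have h2 : D.sc (⁅t, y⁆ ^ r) (pow_mem hzB r) = 1 := by
      rw [D.sc_congr hz _ (one_mem _), D.sc_one]
    rw [h2] at h1
    have := congrArg (Units.val) h1
    simpa using this.symm
  have hprim : IsPrimitiveRoot ((D.sc _ hzB : Kˣ) : K) r := by
    have := IsPrimitiveRoot.orderOf ((D.sc _ hzB : Kˣ) : K)
    rwa [orderOf_eq_prime hξr hξne] at this
  refine eigen_key (y := D.lin ⟨y, tee_le_centralizer hy⟩) ?_ hprim ?_ ?_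
  · intro a b hab
    simp only [lin_apply] at hab
    exact (D.ρ y).injective hab
  · rw [← map_pow]
    have : (⟨t, tee_le_centralizer ht⟩ : centralizer (D.B : Set G)) ^ r = 1 :=
      Subtype.ext htr
    rw [this, map_one]
  · intro v
    simp only [lin_apply]
    rw [← D.ρ_sc, ← ρ_mul, ← ρ_mul, ← ρ_mul]
    congr 2
    simp only [commutatorElement_def]
    group

theorem index_eq : (D.B.subgroupOf (tee D.B)).index = haveI := D.hB.normal;
    Nat.card ((tee D.B).map (QuotientGroup.mk' D.B)) := by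
  haveI := D.hB.normal
  let f : tee D.B →* G ⧸ D.B := (QuotientGroup.mk' D.B).comp (tee D.B).subtype
  have hk : f.ker = D.B.subgroupOf (tee D.B) := by
    ext x
    simp [f, MonoidHom.mem_ker, Subgroup.mem_subgroupOf]
  have hr : f.range = (tee D.B).map (QuotientGroup.mk' D.B) := by
    simp [f, MonoidHom.range_comp]
  rw [← hk, Subgroup.index_ker, hr]

/-- counting non-central elements of order `r` -/
theorem card_X_le {r : ℕ} (hr : r.Prime) (X : Finset G)
    (hX : ∀ t ∈ X, t ∈ tee D.B ∧ t ∉ D.B ∧ t ^ r = 1) :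
    X.card ≤ r * ((D.B.subgroupOf (tee D.B)).index - 1) := by
  classical
  haveI := D.hB.normal
  haveI : Finite D.B := inferInstance
  haveI := D.isCyclic_B (K := K) (V := V)
  haveI : Fintype D.B := Fintype.ofFinite _
  haveI : Fintype (G ⧸ D.B) := Fintype.ofFinite _
  set π := QuotientGroup.mk' D.B with hπ
  have h1 := Finset.card_le_mul_card_image (f := fun t => π t) X r ?_
  · refine h1.trans (Nat.mul_le_mul_left _ ?_)
    rw [D.index_eq]
    haveI : Fintype ((tee D.B).map π) := Fintype.ofFinite _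
    have h2 : X.image (fun t => π t) ⊆
        (Finset.univ.filter (fun c : G ⧸ D.B => c ∈ (tee D.B).map π)).erase 1 := by
      intro c hc
      obtain ⟨t, ht, rfl⟩ := Finset.mem_image.1 hc
      obtain ⟨h3, h4, -⟩ := hX t ht
      refine Finset.mem_erase.2 ⟨?_, Finset.mem_filter.2 ⟨Finset.mem_univ _, t, h3, rfl⟩⟩
      intro h5
      exact h4 ((QuotientGroup.eq_one_iff t).1 h5)
    refine (Finset.card_le_card h2).trans ?_
    rw [Finset.card_erase_of_mem (Finset.mem_filter.2 ⟨Finset.mem_univ _, one_mem _⟩),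
      ← Fintype.card_subtype, Nat.card_eq_fintype_card]
  · intro c hc
    obtain ⟨t₀, ht₀, rfl⟩ := Finset.mem_image.1 hc
    obtain ⟨h3, h4, h5⟩ := hX t₀ ht₀
    have hW : (Finset.univ.filter (fun b : D.B => b ^ r = 1)).card ≤ r :=
      IsCyclic.card_pow_eq_one_le hr.pos
    refine le_trans ?_ hW
    have h6 : (X.filter (fun t => π t = π t₀)) ⊆
        ((Finset.univ.filter (fun b : D.B => b ^ r = 1)).image
          (fun b : D.B => t₀ * (b : G))) := by
      intro t ht
      obtain ⟨ht1, ht2⟩ := Finset.mem_filter.1 ht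
      obtain ⟨h7, h8, h9⟩ := hX t ht1
      have hb : t₀⁻¹ * t ∈ D.B := by
        have := (QuotientGroup.eq (s := D.B)).1 (show ((t₀ : G) : G ⧸ D.B) = ((t : G) : G ⧸ D.B) from ht2.symm)
        exact this
      refine Finset.mem_image.2 ⟨⟨t₀⁻¹ * t, hb⟩, Finset.mem_filter.2 ⟨Finset.mem_univ _, ?_⟩, by simp⟩
      apply Subtype.ext
      simp only [Subgroup.coe_pow, Subgroup.coe_mk, Subgroup.coe_one]
      have hcomm : Commute t₀⁻¹ t := by
        have h10 : Commute (t₀⁻¹ * t) t₀ := comm_of_mem_tee hb h3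
        have h11 : Commute t₀ (t₀⁻¹ * t) := h10.symm
        have h12 : t₀ * (t₀⁻¹ * t) = (t₀⁻¹ * t) * t₀ := h11
        show t₀⁻¹ * t = t * t₀⁻¹
        have h13 : t = (t₀⁻¹ * t) * t₀ := by
          rw [← h12]; group
        calc t₀⁻¹ * t = t₀⁻¹ * t * t₀ * t₀⁻¹ := by group
          _ = t * t₀⁻¹ := by rw [← h13]
      rw [hcomm.mul_pow, h9, inv_pow, h5]
      simp
    refine (Finset.card_le_card h6).trans Finset.card_image_le

/-- The covering estimate. -/
theorem cover_bound {r n : ℕ} (hr : r.Prime) (hm : finrank K V = r * n) {t₀ : G}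
    (h1 : t₀ ∈ tee D.B) (h2 : t₀ ∉ D.B) (h3 : t₀ ^ r = 1) :
    Nat.card K ^ (r * n) - 1 ≤
      r * ((D.B.subgroupOf (tee D.B)).index - 1) * (Nat.card K ^ n - 1) := by
  classical
  haveI : Fintype G := Fintype.ofFinite G
  haveI : Fintype V := Fintype.ofFinite V
  haveI := D.hB.normal
  haveI := D.hB.tee_normal
  haveI : Module.Finite K V := Module.Finite.of_finite
  let X : Finset G := Finset.univ.filter (fun t => t ∈ tee D.B ∧ t ∉ D.B ∧ t ^ r = 1)
  have hXm : ∀ t ∈ X, t ∈ tee D.B ∧ t ∉ D.B ∧ t ^ r = 1 := fun t ht => (Finset.mem_filter.1 ht).2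
  let F : G → Finset V := fun t => Finset.univ.filter (fun v => v ≠ 0 ∧ D.ρ t v = v)
  -- the fixed points of `t₀`
  obtain ⟨hk0, -⟩ := D.fix_key hr h1 h2 h3
  have hne : Module.End.eigenspace (D.lin ⟨t₀, tee_le_centralizer h1⟩) 1 ≠ ⊥ := by
    intro h
    rw [h] at hk0
    simp at hk0
  obtain ⟨v₀, hv₀, hv₀0⟩ := (Submodule.ne_bot_iff _).1 hne
  have hv₀' : D.ρ t₀ v₀ = v₀ := by
    have := Module.End.mem_eigenspace_iff.1 hv₀
    simpa using this
  -- covering
  have hcov : (Finset.univ.filter (fun v : V => v ≠ 0)) ⊆ X.biUnion F := by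
    intro v hv
    have hv0 : v ≠ 0 := (Finset.mem_filter.1 hv).2
    obtain ⟨g, hg⟩ := D.trans v₀ v hv₀0 hv0
    refine Finset.mem_biUnion.2 ⟨g * t₀ * g⁻¹, Finset.mem_filter.2 ⟨Finset.mem_univ _, ?_, ?_, ?_⟩,
      Finset.mem_filter.2 ⟨Finset.mem_univ _, hv0, ?_⟩⟩
    · exact Subgroup.Normal.conj_mem inferInstance _ h1 g
    · intro hmem
      apply h2
      have := Subgroup.Normal.conj_mem (inferInstance : D.B.Normal) _ hmem g⁻¹
      simpa [mul_assoc] using this
    · rw [conj_pow, h3]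
      simp
    · rw [← hg]
      simp [hv₀']
  -- size of the pieces
  have hF : ∀ t ∈ X, (F t).card ≤ Nat.card K ^ n - 1 := by
    intro t ht
    obtain ⟨h4, h5, h6⟩ := hXm t ht
    obtain ⟨-, hk⟩ := D.fix_key hr h4 h5 h6
    set E := Module.End.eigenspace (D.lin ⟨t, tee_le_centralizer h4⟩) 1 with hE
    have hkn : finrank K E ≤ n := by
      rw [hm] at hk
      exact Nat.le_of_mul_le_mul_left hk hr.pos
    have hcardE : Nat.card E = Nat.card K ^ finrank K E := Module.natCard_eq_pow_finrank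
    have hsub : F t ⊆ (Finset.univ.filter (fun v : V => v ∈ E)).erase 0 := by
      intro v hv
      obtain ⟨-, hv1, hv2⟩ := Finset.mem_filter.1 hv
      refine Finset.mem_erase.2 ⟨hv1, Finset.mem_filter.2 ⟨Finset.mem_univ _, ?_⟩⟩
      rw [hE, Module.End.mem_eigenspace_iff]
      simpa using hv2
    refine (Finset.card_le_card hsub).trans ?_
    rw [Finset.card_erase_of_mem (Finset.mem_filter.2 ⟨Finset.mem_univ _, zero_mem E⟩),
      ← Fintype.card_subtype]
    have h7 : Fintype.card {v // v ∈ E} = Nat.card E := (Nat.card_eq_fintype_card).symm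
    rw [h7, hcardE]
    refine Nat.sub_le_sub_right (Nat.pow_le_pow_right (Finite.one_lt_card (α := K)).le hkn) 1
  -- assemble
  have hV : Nat.card K ^ (r * n) - 1 = (Finset.univ.filter (fun v : V => v ≠ 0)).card := by
    rw [← hm, ← card_eq_pow_finrank (K := K) (V := V), Finset.filter_ne', Finset.card_erase_of_mem (Finset.mem_univ _),
      Finset.card_univ, Nat.card_eq_fintype_card]
  rw [hV]
  calc _ ≤ (X.biUnion F).card := Finset.card_le_card hcov
    _ ≤ ∑ t ∈ X, (F t).card := Finset.card_biUnion_le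
    _ ≤ X.card * (Nat.card K ^ n - 1) := Finset.sum_le_card_nsmul _ _ _ hF
    _ ≤ _ := Nat.mul_le_mul_right _ (D.card_X_le hr X hXm)

end T

end SLData

end Cfsg.Agent.Lib.Huppert
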