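import Mathlib

/-!
# The numerical part of Huppert's theorem
-/

set_option autoImplicit false

namespace Cfsg.Agent.Lib.Huppert

/-- geometric sum in `ℕ`. -/
theorem geom_mul_eq (w r : ℕ) (hw : 1 ≤ w) : (∑ i ∈ Finset.range r, w ^ i) * (w - 1) = w ^ r - 1 := by
  have h := geom_sum_mul (w : ℤ) r
  have h1 : 1 ≤ w ^ r := Nat.one_le_pow _ _ hw
  zify [hw, h1]
  simpa using h

theorem geom_le_of_bound {w r c : ℕ} (hw : 2 ≤ w) (h : w ^ r - 1 ≤ c * (w - 1)) :
    ∑ i ∈ Finset.range r, w ^ i ≤ c := by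
  rw [← geom_mul_eq w r (by omega)] at h
  exact Nat.le_of_mul_le_mul_right h (by omega)

theorem two_pow_gt (n : ℕ) (hn : 1 ≤ n) : n ^ 2 < 2 ^ (4 * n - 3) := by
  induction n, hn using Nat.le_induction with
  | base => norm_num
  | succ n hn ih =>
    have e : 4 * (n + 1) - 3 = (4 * n - 3) + 4 := by omega
    rw [e, pow_add]
    nlinarith

theorem numeric_large {r n s c : ℕ} (hr : 5 ≤ r) (hn : 1 ≤ n) (hs : r + 1 ≤ s)
    (hc : c ≤ r * r ^ 2 * n ^ 2)
    (h : ∑ i ∈ Finset.range r, (s ^ n) ^ i ≤ c) : False := by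
  have h1 : (s ^ n) ^ (r - 1) ≤ ∑ i ∈ Finset.range r, (s ^ n) ^ i :=
    Finset.single_le_sum (f := fun i => (s ^ n) ^ i) (fun _ _ => Nat.zero_le _)
      (Finset.mem_range.2 (by omega))
  have h2 : (r + 1) ^ (4 * n) ≤ (s ^ n) ^ (r - 1) := by
    rw [← pow_mul]
    calc (r + 1) ^ (4 * n) ≤ (r + 1) ^ (n * (r - 1)) := by
          apply Nat.pow_le_pow_right (by omega)
          have : 4 ≤ r - 1 := by omega
          nlinarith
      _ ≤ s ^ (n * (r - 1)) := Nat.pow_le_pow_left hs _
  have h3 : n ^ 2 < 2 ^ (4 * n - 3) := two_pow_gt n hn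
  have h4 : r ^ 3 * 2 ^ (4 * n - 3) ≤ (r + 1) ^ (4 * n) := by
    have e : 4 * n = 3 + (4 * n - 3) := by omega
    conv_rhs => rw [e, pow_add]
    apply Nat.mul_le_mul
    · exact Nat.pow_le_pow_left (by omega) _
    · exact Nat.pow_le_pow_left (by omega) _
  have h5 : r ^ 3 * n ^ 2 < r ^ 3 * 2 ^ (4 * n - 3) :=
    Nat.mul_lt_mul_of_pos_left h3 (by positivity)
  have h6 : r * r ^ 2 * n ^ 2 = r ^ 3 * n ^ 2 := by ring
  omega

theorem three_pow_gt (n : ℕ) (hn : 5 ≤ n) : 8 * n ^ 2 < 3 ^ n := by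
  induction n, hn using Nat.le_induction with
  | base => norm_num
  | succ n hn ih =>
    rw [pow_succ 3 n]
    nlinarith

theorem sixteen_pow_gt (n : ℕ) (hn : 2 ≤ n) : 27 * n ^ 2 < 16 ^ n := by
  induction n, hn using Nat.le_induction with
  | base => norm_num
  | succ n hn ih =>
    rw [pow_succ 16 n]
    nlinarith

/-- The numerical classification. -/
theorem numeric_main {r n s a : ℕ} (hr : r.Prime) (hn : 1 ≤ n) (hs : 2 ≤ s) (hrs : r ∣ s - 1)
    (ha : a ≤ (r * n) ^ 2) (h : s ^ (r * n) - 1 ≤ r * (a - 1) * (s ^ n - 1)) :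
    (r = 2 ∧ ((n = 1 ∧ (s = 3 ∨ s = 5)) ∨ (n = 2 ∧ (s = 3 ∨ s = 5)) ∨ (n = 3 ∧ s = 3) ∨
      (n = 4 ∧ s = 3))) ∨ (r = 3 ∧ n = 1 ∧ s = 4) := by
  have hrs' : r + 1 ≤ s := by
    have := Nat.le_of_dvd (by omega) hrs
    omega
  have hw : 2 ≤ s ^ n := by
    calc 2 ≤ s := hs
      _ = s ^ 1 := (pow_one s).symm
      _ ≤ s ^ n := Nat.pow_le_pow_right (by omega) hn
  have hgeom : ∑ i ∈ Finset.range r, (s ^ n) ^ i ≤ r * (a - 1) := by
    apply geom_le_of_bound hw
    rw [← pow_mul, mul_comm n r]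
    exact h
  have hc : r * (a - 1) ≤ r * ((r * n) ^ 2 - 1) := Nat.mul_le_mul_left _ (by omega)
  have hr2 := hr.two_le
  rcases Nat.lt_or_ge r 5 with hlt | hge
  · -- r = 2 or 3
    have hr' : r = 2 ∨ r = 3 := by
      interval_cases r
      · left; rfl
      · right; rfl
      · exact absurd hr (by norm_num)
    have hsum := hgeom.trans hc
    rcases hr' with rfl | rfl
    · left
      refine ⟨rfl, ?_⟩
      have hsum : 1 + s ^ n ≤ 2 * ((2 * n) ^ 2 - 1) := by
        simpa [Finset.sum_range_succ] using hsum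
      have hsodd : 3 ≤ s := hrs'
      have hsodd' : s % 2 = 1 := by
        obtain ⟨k, hk⟩ := hrs
        omega
      have h8 : 1 + s ^ n ≤ 8 * n ^ 2 - 2 := by
        have : 2 * ((2 * n) ^ 2 - 1) = 8 * n ^ 2 - 2 := by
          rw [mul_pow]
          omega
        omega
      have hn4 : n ≤ 4 := by
        by_contra hcon
        have h3 := three_pow_gt n (by omega)
        have h4 : 3 ^ n ≤ s ^ n := Nat.pow_le_pow_left hsodd _
        omega
      interval_cases n
      · left
        have h9 : s ^ 1 = s := pow_one s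
        have : s ≤ 5 := by omega
        refine ⟨rfl, ?_⟩
        interval_cases s <;> simp_all
      · right; left
        have : s ≤ 5 := by
          by_contra hcon
          have : 6 ^ 2 ≤ s ^ 2 := Nat.pow_le_pow_left (by omega) _
          omega
        refine ⟨rfl, ?_⟩
        interval_cases s <;> simp_all
      · right; right; left
        have : s ≤ 4 := by
          by_contra hcon
          have : 5 ^ 3 ≤ s ^ 3 := Nat.pow_le_pow_left (by omega) _
          omega
        refine ⟨rfl, ?_⟩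
        interval_cases s <;> simp_all
      · right; right; right
        have : s ≤ 4 := by
          by_contra hcon
          have : 5 ^ 4 ≤ s ^ 4 := Nat.pow_le_pow_left (by omega) _
          omega
        have h4 : s ≠ 4 := by
          rintro rfl
          simp at hsodd'
        refine ⟨rfl, ?_⟩
        omega
    · right
      refine ⟨rfl, ?_⟩
      have hsum : 1 + s ^ n + (s ^ n) ^ 2 ≤ 3 * ((3 * n) ^ 2 - 1) := by
        simpa [Finset.sum_range_succ] using hsum
      have h27 : 1 + s ^ n + (s ^ n) ^ 2 ≤ 27 * n ^ 2 - 3 := by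
        have : 3 * ((3 * n) ^ 2 - 1) = 27 * n ^ 2 - 3 := by
          rw [mul_pow]
          omega
        omega
      have hn1 : n = 1 := by
        by_contra hcon
        have h3 := sixteen_pow_gt n (by omega)
        have h4 : 16 ^ n ≤ (s ^ n) ^ 2 := by
          rw [← pow_mul, mul_comm, pow_mul]
          exact Nat.pow_le_pow_left (by nlinarith) _
        omega
      subst hn1
      refine ⟨rfl, ?_⟩
      simp only [pow_one] at h27
      have hs4 : s ≤ 4 := by
        by_contra hcon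
        have : 5 ^ 2 ≤ s ^ 2 := Nat.pow_le_pow_left (by omega) _
        omega
      omega
  · exfalso
    refine numeric_large hge hn hrs' ?_ (hgeom.trans hc)
    have : (r * n) ^ 2 - 1 ≤ r ^ 2 * n ^ 2 := by
      rw [mul_pow]; omega
    exact (Nat.mul_le_mul_left r this).trans (by rw [mul_assoc])

end Cfsg.Agent.Lib.Huppert
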