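import Mathlib
import Cfsg.Agent.Lib.Huppert.Linear
import Cfsg.Agent.Lib.Huppert.Numeric

/-!
# Non-central elements of prime order; the main estimate
-/

set_option autoImplicit false
set_option linter.unusedSectionVars false

namespace Cfsg.Agent.Lib.Huppert

open Subgroup Module
open scoped commutatorElement

universe u v w

namespace SLData

variable {K : Type u} {V : Type v} {G : Type w} [Field K] [AddCommGroup V] [Module K V] [Group G]
  (D : SLData K V G)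

section

variable [Finite K] [Finite V] [Nontrivial V] [Finite G]

/-- From `w^(r^a) ∈ B` to `w^r ∈ B`. -/
theorem pow_r_mem {r : ℕ} {w : G} (hw : w ∈ tee D.B) (a : ℕ) (h : w ^ (r ^ a) ∈ D.B) :
    w ^ r ∈ D.B := by
  induction a with
  | zero =>
    simp only [pow_zero, pow_one] at h
    exact pow_mem h r
  | succ a ih =>
    rcases a with _ | a
    · simpa using h
    · apply ih
      have := D.hB.pow_mem_of_pow_pow_mem (x := w ^ (r ^ a)) (pow_mem hw _) r (by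
        rw [← pow_mul]
        convert h using 2
        ring)
      convert this using 1
      rw [pow_succ r a, pow_mul]

/-- Existence of a non-central element whose `r`-th power is an `r`-th power in `B`. -/
theorem exists_pow_eq_pow {r : ℕ} (hr : r.Prime) (hodd : r ≠ 2) {x : G} (hx : x ∈ tee D.B)
    (hxB : x ∉ D.B) (hxr : x ^ r ∈ D.B) :
    ∃ u ∈ tee D.B, u ∉ D.B ∧ ∃ b ∈ D.B, u ^ r = b ^ r := by
  classical
  haveI : Fact r.Prime := ⟨hr⟩
  obtain ⟨y, hy, hne⟩ := D.exists_comm_ne_one hx hxB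
  have hz : ⁅x, y⁆ ^ r = 1 := by
    rw [← D.comm_pow_left' hx hy]
    exact D.comm_eq_one_of_mem_B hxr hy
  have ho : orderOf ⁅x, y⁆ = r := orderOf_eq_prime hz hne
  obtain ⟨a, o', hro', hoeq⟩ := Nat.exists_eq_pow_mul_and_not_dvd
    (orderOf_pos y).ne' r hr.ne_one
  set y₁ := y ^ o' with hy₁
  have hy₁T : y₁ ∈ tee D.B := pow_mem hy _
  have hne₁ : ⁅x, y₁⁆ ≠ 1 := by
    rw [hy₁, D.comm_pow_right' hx hy]
    intro h
    exact hro' (ho ▸ orderOf_dvd_of_pow_eq_one h)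
  have hy₁r : y₁ ^ r ∈ D.B := by
    apply D.pow_r_mem hy₁T a
    have : y₁ ^ r ^ a = 1 := by
      rw [hy₁, ← pow_mul, mul_comm, ← hoeq, pow_orderOf_eq_one]
    rw [this]
    exact one_mem _
  haveI := D.isCyclic_B (K := K) (V := V)
  haveI : Finite D.B := inferInstance
  obtain ⟨β, hβ⟩ := IsCyclic.exists_monoid_generator (α := D.B)
  obtain ⟨e₁, he₁⟩ := Submonoid.mem_powers_iff _ _ |>.1 (hβ ⟨x ^ r, hxr⟩)
  obtain ⟨e₂, he₂⟩ := Submonoid.mem_powers_iff _ _ |>.1 (hβ ⟨y₁ ^ r, hy₁r⟩)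
  have he₁' : (β : G) ^ e₁ = x ^ r := congrArg Subtype.val he₁
  have he₂' : (β : G) ^ e₂ = y₁ ^ r := congrArg Subtype.val he₂
  by_cases h1 : r ∣ e₁
  · obtain ⟨f, rfl⟩ := h1
    refine ⟨x, hx, hxB, (β : G) ^ f, pow_mem β.2 _, ?_⟩
    rw [← he₁', pow_mul, ← pow_mul, ← pow_mul, mul_comm]
  · -- choose `i`
    have ha : ((e₁ : ℕ) : ZMod r) ≠ 0 := by
      rwa [Ne, ZMod.natCast_eq_zero_iff]
    set i : ℕ := (-(e₂ : ZMod r) * (e₁ : ZMod r)⁻¹).val with hi
    have hdvd : r ∣ e₁ * i + e₂ := by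
      rw [← ZMod.natCast_eq_zero_iff]
      push_cast
      rw [hi, ZMod.natCast_val, ZMod.cast_id']
      simp only [id]
      field_simp
      ring
    obtain ⟨f, hf⟩ := hdvd
    have hxi : x ^ i ∈ tee D.B := pow_mem hx _
    have hxir : (x ^ i) ^ r ∈ D.B := by
      rw [← pow_mul, mul_comm, pow_mul]
      exact pow_mem hxr _
    refine ⟨x ^ i * y₁, mul_mem hxi hy₁T, ?_, (β : G) ^ f, pow_mem β.2 _, ?_⟩
    · intro hu
      apply hne₁
      have h2 : ⁅x, x ^ i * y₁⁆ = 1 := D.comm_eq_one_of_mem_B' hx hu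
      rw [D.comm_mul_right hxi hy₁T hx] at h2
      have h3 : ⁅x, x ^ i⁆ = 1 := by
        rw [commutatorElement_eq_one_iff_commute]
        exact (Commute.refl x).pow_right i
      rw [h3, one_mul] at h2
      exact h2
    · have h4 := Cfsg.Agent.Lib.Transfer.mul_pow_class2 (x := x ^ i) (y := y₁)
        (D.hB.commute_comm hy₁T hxi hxi) (D.hB.commute_comm hy₁T hxi hy₁T) r
      have h5 : ⁅y₁, x ^ i⁆ ^ r = 1 := by
        rw [← D.comm_pow_right' hy₁T hxi]
        exact D.comm_eq_one_of_mem_B' hy₁T hxir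
      have h6 : r ∣ r.choose 2 := hr.dvd_choose_self (by norm_num) (by
        have := hr.two_le
        omega)
      have h7 : ⁅y₁, x ^ i⁆ ^ r.choose 2 = 1 := by
        obtain ⟨c, hc⟩ := h6
        rw [hc, pow_mul, h5, one_pow]
      rw [h4, h7, mul_one, ← pow_mul, mul_comm i r, pow_mul, ← he₁', ← he₂', ← pow_mul, ← pow_add,
        ← pow_mul, hf, mul_comm f r]

/-- Non-central elements of odd prime order. -/
theorem exists_order_r {r : ℕ} (hr : r.Prime) (hodd : r ≠ 2) {x : G} (hx : x ∈ tee D.B)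
    (hxB : x ∉ D.B) (hxr : x ^ r ∈ D.B) :
    ∃ t ∈ tee D.B, t ∉ D.B ∧ t ^ r = 1 := by
  obtain ⟨u, hu, huB, b, hb, hub⟩ := D.exists_pow_eq_pow hr hodd hx hxB hxr
  refine ⟨u * b⁻¹, mul_mem hu (inv_mem (D.hB.le_tee hb)), ?_, ?_⟩
  · intro h
    apply huB
    have := mul_mem h hb
    simpa using this
  · have hc : Commute u b⁻¹ := (comm_of_mem_tee (inv_mem hb) hu).symm
    rw [hc.mul_pow, hub, inv_pow, mul_inv_cancel]

/-- Existence of a good prime. -/
theorem exists_good_prime (hT : tee D.B ≠ D.B) :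
    ∃ r : ℕ, r.Prime ∧ ∃ x ∈ tee D.B, x ∉ D.B ∧ x ^ r ∈ D.B := by
  classical
  have hle := D.hB.le_tee
  obtain ⟨x, hx, hxB⟩ : ∃ x ∈ tee D.B, x ∉ D.B := by
    by_contra hcon
    push Not at hcon
    exact hT (le_antisymm hcon hle)
  have hex : ∃ n : ℕ, 0 < n ∧ x ^ n ∈ D.B := by
    refine ⟨orderOf x, orderOf_pos x, ?_⟩
    rw [pow_orderOf_eq_one]
    exact one_mem _
  set n := Nat.find hex with hn
  obtain ⟨hn0, hnB⟩ := Nat.find_spec hex
  have hn1 : n ≠ 1 := by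
    intro h
    rw [← hn, h, pow_one] at hnB
    exact hxB hnB
  obtain ⟨r, hr, hrn⟩ := Nat.exists_prime_and_dvd hn1
  obtain ⟨c, hc⟩ := hrn
  refine ⟨r, hr, x ^ c, pow_mem hx _, ?_, ?_⟩
  · intro h
    have hc0 : 0 < c := by
      rcases Nat.eq_zero_or_pos c with h0 | h0
      · rw [← hn, hc, h0] at hn0
        simp at hn0
      · exact h0
    have hlt : c < n := by
      rw [hc]
      exact lt_mul_of_one_lt_left hc0 hr.one_lt
    exact Nat.find_min hex hlt ⟨hc0, h⟩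
  · rw [← pow_mul, mul_comm, ← hc]
    exact hnB

/-- The main estimate. -/
theorem main_estimate {r : ℕ} (hr : r.Prime) {t : G} (ht : t ∈ tee D.B) (htB : t ∉ D.B)
    (htr : t ^ r = 1) :
    (r = 2 ∧ ((finrank K V = 2 ∧ (Nat.card K = 3 ∨ Nat.card K = 5)) ∨
      (finrank K V = 4 ∧ (Nat.card K = 3 ∨ Nat.card K = 5)) ∨ (finrank K V = 6 ∧ Nat.card K = 3) ∨
      (finrank K V = 8 ∧ Nat.card K = 3))) ∨ (r = 3 ∧ finrank K V = 3 ∧ Nat.card K = 4) := by
  have hxr : t ^ r ∈ D.B := by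
    rw [htr]
    exact one_mem _
  obtain ⟨⟨n, hn⟩, h2⟩ := D.good_prime hr ht htB hxr
  have hn1 : 1 ≤ n := by
    rcases Nat.eq_zero_or_pos n with h0 | h0
    · obtain ⟨hk, hk'⟩ := D.fix_key hr ht htB htr
      haveI : Module.Finite K V := Module.Finite.of_finite
      rw [hn, h0, mul_zero] at hk'
      have : finrank K (Module.End.eigenspace (D.lin ⟨t, tee_le_centralizer ht⟩) 1) = 0 := by
        have hr0 := hr.pos
        exact (Nat.mul_eq_zero.1 (le_antisymm hk' (Nat.zero_le _))).resolve_left hr0.ne'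
      exact absurd this hk
    · exact h0
  have hs : 2 ≤ Nat.card K := Finite.one_lt_card
  have hrs : r ∣ Nat.card K - 1 := h2.trans (D.card_B_dvd)
  have hb := D.cover_bound hr hn ht htB htr
  have ha := D.index_le
  rw [hn] at ha
  rcases numeric_main hr hn1 hs hrs ha hb with ⟨rfl, h3⟩ | ⟨rfl, h3, h4⟩
  · left
    refine ⟨rfl, ?_⟩
    rcases h3 with ⟨rfl, h4⟩ | ⟨rfl, h4⟩ | ⟨rfl, h4⟩ | ⟨rfl, h4⟩
    · exact Or.inl ⟨hn, h4⟩
    · exact Or.inr (Or.inl ⟨hn, h4⟩)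
    · exact Or.inr (Or.inr (Or.inl ⟨hn, h4⟩))
    · exact Or.inr (Or.inr (Or.inr ⟨hn, h4⟩))
  · right
    subst h3
    exact ⟨rfl, hn, h4⟩

end

end SLData

end Cfsg.Agent.Lib.Huppert
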