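import Mathlib
import Cfsg.Agent.Lib.Huppert.Order

/-!
# Excluding large primes; the abelian case
-/

set_option autoImplicit false
set_option linter.unusedSectionVars false

namespace Cfsg.Agent.Lib.Huppert

open Subgroup Module
open scoped commutatorElement

universe u v w

/-- The automorphism group of a finite field. -/
theorem card_ringAut (K : Type u) [Field K] [Finite K] :
    ∃ p d : ℕ, p.Prime ∧ 1 ≤ d ∧ Nat.card K = p ^ d ∧ Nat.card (RingAut K) = d ∧ CharP K p := by
  classical
  haveI : Fintype K := Fintype.ofFinite K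
  obtain ⟨p, hp⟩ := CharP.exists K
  obtain ⟨n, hpp, hn⟩ := FiniteField.card K p
  haveI : Fact p.Prime := ⟨hpp⟩
  letI : Algebra (ZMod p) K := ZMod.algebra K p
  haveI : Module.Finite (ZMod p) K := Module.Finite.of_finite
  have hcard : Nat.card K = p ^ finrank (ZMod p) K := by
    rw [Module.natCard_eq_pow_finrank (K := ZMod p), Nat.card_zmod]
  have hd : 1 ≤ finrank (ZMod p) K := Module.finrank_pos
  refine ⟨p, finrank (ZMod p) K, hpp, hd, hcard, ?_, hp⟩
  rw [← IsGalois.card_aut_eq_finrank (ZMod p) K]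
  refine Nat.card_congr ?_
  exact {
    toFun := fun σ => AlgEquiv.ofRingEquiv (f := σ) (fun r => by
      have : (σ : K →+* K).comp (algebraMap (ZMod p) K) = algebraMap (ZMod p) K :=
        Subsingleton.elim _ _
      exact RingHom.congr_fun this r)
    invFun := fun σ => σ.toRingEquiv
    left_inv := fun σ => by
      ext a
      rfl
    right_inv := fun σ => by
      ext a
      rfl }

namespace SLData

variable {K : Type u} {V : Type v} {G : Type w} [Field K] [AddCommGroup V] [Module K V] [Group G]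
  (D : SLData K V G)

section

variable [Finite K] [Finite V] [Nontrivial V] [Finite G]

theorem mem_centralizer_of_σ_eq_one {g : G} (h : D.σ g = 1) : g ∈ centralizer (D.B : Set G) := by
  rw [mem_centralizer_iff]
  intro b hb
  apply D.inj
  ext v
  simp only [map_mul, Equiv.Perm.coe_mul, Function.comp_apply]
  rw [D.ρ_sc hb, D.ρ_sc hb, D.semi, h]
  rfl

theorem ker_σ : D.σ.ker = centralizer (D.B : Set G) := by
  ext g
  rw [MonoidHom.mem_ker]
  exact ⟨D.mem_centralizer_of_σ_eq_one, D.ker g⟩

/-- Primes not dividing the order of `B` or of an `r`-group `T`, with order of `r` large. -/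
theorem no_large_prime {ℓ r e E : ℕ} [Group.IsSolvable G] (hℓ : ℓ.Prime) (hr : r.Prime) (hne : ℓ ≠ r)
    (hℓG : ℓ ∣ Nat.card G) (he : e ≤ E) (hT : Nat.card (tee D.B) = r ^ e)
    (hord : ∀ i, 0 < i → i ≤ E → ¬ ℓ ∣ r ^ i - 1) (hℓB : ¬ ℓ ∣ Nat.card D.B) : False := by
  classical
  haveI : Fact ℓ.Prime := ⟨hℓ⟩
  haveI := D.hB.tee_normal
  obtain ⟨c, hc⟩ := exists_prime_orderOf_dvd_card' ℓ hℓG
  set Z := Subgroup.zpowers c with hZ
  have hZp : IsPGroup ℓ Z := IsPGroup.of_card (n := 1) (by
    rw [Nat.card_zpowers, hc, pow_one])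
  letI : MulAction Z (tee D.B) :=
    MulAction.compHom (tee D.B) ((MulAut.conjNormal (H := tee D.B)).comp Z.subtype)
  have hsmul : ∀ (z : Z) (x : tee D.B), ((z • x : tee D.B) : G) = (z : G) * x * (z : G)⁻¹ := by
    intro z x
    rfl
  have hmod := IsPGroup.card_modEq_card_fixedPoints hZp (tee D.B)
  set J := (centralizer ({c} : Set G)).subgroupOf (tee D.B) with hJ
  have hfix : ∀ x : tee D.B, x ∈ MulAction.fixedPoints Z (tee D.B) ↔ x ∈ J := by
    intro x
    rw [hJ, Subgroup.mem_subgroupOf, Subgroup.mem_centralizer_singleton_iff]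
    constructor
    · intro h
      have h1 := h ⟨c, Subgroup.mem_zpowers c⟩
      have h2 := congrArg Subtype.val h1
      rw [hsmul] at h2
      simp only at h2
      have h3 : c * (x : G) = x * c := by
        calc c * (x : G) = c * x * c⁻¹ * c := by group
          _ = x * c := by rw [h2]
      exact h3.symm
    · intro h z
      obtain ⟨k, hk⟩ := Subgroup.mem_zpowers_iff.1 z.2
      apply Subtype.ext
      rw [hsmul, ← hk]
      have hcomm : Commute (x : G) (c ^ k) := (show Commute (x : G) c from h).zpow_right k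
      rw [← hcomm.eq]
      group
  have hcardJ : Nat.card (MulAction.fixedPoints Z (tee D.B)) = Nat.card J :=
    Nat.card_congr (Equiv.subtypeEquivRight hfix)
  rw [hcardJ, hT] at hmod
  have hJdvd : Nat.card J ∣ r ^ e := hT ▸ Subgroup.card_subgroup_dvd_card J
  obtain ⟨f, hf, hJf⟩ := (Nat.dvd_prime_pow hr).1 hJdvd
  rw [hJf] at hmod
  have hfe : f = e := by
    by_contra hcon
    have hlt : f < e := lt_of_le_of_ne hf hcon
    have hcop : Nat.Coprime ℓ r := (Nat.coprime_primes hℓ hr).2 hne
    have h1 : r ^ e = r ^ f * r ^ (e - f) := by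
      rw [← pow_add]
      congr 1
      omega
    rw [h1] at hmod
    have h2 : r ^ f * r ^ (e - f) ≡ r ^ f * 1 [MOD ℓ] := by
      rwa [mul_one]
    have h3 : r ^ (e - f) ≡ 1 [MOD ℓ] :=
      Nat.ModEq.cancel_left_of_coprime (by
        rw [Nat.gcd_comm]
        exact Nat.Coprime.pow_left f hcop.symm |>.symm.symm) h2
    have h4 : ℓ ∣ r ^ (e - f) - 1 := (Nat.modEq_iff_dvd' (Nat.one_le_pow _ _ hr.pos)).1 h3.symm
    exact hord (e - f) (by omega) (by omega) h4
  have hJtop : J = ⊤ := by
    apply Subgroup.eq_top_of_card_eq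
    rw [hJf, hfe, hT]
  have hcC : c ∈ centralizer (tee D.B : Set G) := by
    rw [mem_centralizer_iff]
    intro t ht
    have : (⟨t, ht⟩ : tee D.B) ∈ J := by
      rw [hJtop]
      trivial
    rw [hJ, Subgroup.mem_subgroupOf, Subgroup.mem_centralizer_singleton_iff] at this
    exact this
  have hcB := D.hB.centralizer_tee_le hcC
  apply hℓB
  rw [← hc]
  have : orderOf (⟨c, hcB⟩ : D.B) = orderOf c := Subgroup.orderOf_mk _ _
  rw [← this]
  exact orderOf_dvd_natCard _

/-- The abelian case. -/
theorem finrank_eq_one_of_tee_eq [Group.IsSolvable G] (h : tee D.B = D.B) : finrank K V = 1 := by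
  haveI : Module.Finite K V := Module.Finite.of_finite
  have hm0 : finrank K V ≠ 0 := (Module.finrank_pos (R := K) (M := V)).ne'
  by_contra hm1
  have hm2 : 2 ≤ finrank K V := by omega
  obtain ⟨p, d, hp, hd, hs, hAut, -⟩ := card_ringAut K
  have hC := D.hB.centralizer_eq_of_tee_eq h
  haveI : Finite (RingAut K) := Nat.finite_of_card_ne_zero (by omega)
  have h1 : Nat.card G ≤ Nat.card D.B * d := by
    rw [← Subgroup.card_mul_index D.σ.ker, Subgroup.index_ker]
    apply Nat.mul_le_mul
    · rw [D.ker_σ, hC]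
    · rw [← hAut]
      exact Subgroup.card_le_card_group _
  have h2 : Nat.card D.B ≤ Nat.card K - 1 :=
    Nat.le_of_dvd (by
      have : 1 < Nat.card K := Finite.one_lt_card
      omega) D.card_B_dvd
  have h3 : Nat.card V - 1 ≤ Nat.card G := Nat.le_of_dvd Nat.card_pos (card_sub_one_dvd D)
  rw [card_eq_pow_finrank (K := K) (V := V)] at h3
  set s := Nat.card K with hsdef
  have hs2 : 2 ≤ s := Finite.one_lt_card
  have h4 : s ^ 2 ≤ s ^ finrank K V := Nat.pow_le_pow_right (by omega) hm2
  have h5 : d < s := by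
    rw [hs]
    calc d < 2 ^ d := Nat.lt_two_pow_self
      _ ≤ p ^ d := Nat.pow_le_pow_left hp.two_le _
  have h6 : s ^ 2 - 1 ≤ (s - 1) * d := by
    calc s ^ 2 - 1 ≤ s ^ finrank K V - 1 := Nat.sub_le_sub_right h4 1
      _ ≤ Nat.card G := h3
      _ ≤ Nat.card D.B * d := h1
      _ ≤ (s - 1) * d := Nat.mul_le_mul_right _ h2
  clear_value s
  obtain ⟨t, rfl⟩ : ∃ t, s = t + 2 := ⟨s - 2, by omega⟩
  have h7 : (t + 2) ^ 2 - 1 = (t + 1) * (t + 3) := by
    have : (t + 2) ^ 2 = (t + 1) * (t + 3) + 1 := by ring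
    omega
  rw [h7] at h6
  have h8 : t + 2 - 1 = t + 1 := by omega
  rw [h8] at h6
  have := Nat.le_of_mul_le_mul_left h6 (by omega)
  omega

end

end SLData

end Cfsg.Agent.Lib.Huppert
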