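import Mathlib
import Cfsg.Agent.Lib.Huppert.Exclude

/-!
# The case without non-central involutions
-/

set_option autoImplicit false
set_option linter.unusedSectionVars false

namespace Cfsg.Agent.Lib.Huppert

open Subgroup Module
open scoped commutatorElement

universe u v w

theorem lt_twentyseven_pow (d : ℕ) (hd : 1 ≤ d) : 24 * d < 27 ^ d := by
  induction d, hd using Nat.le_induction with
  | base => norm_num
  | succ d hd ih =>
    rw [pow_succ]
    omega

theorem lt_three_pow (d : ℕ) (hd : 5 ≤ d) : 24 * d < 3 ^ d := by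
  induction d, hd using Nat.le_induction with
  | base => norm_num
  | succ d hd ih =>
    rw [pow_succ]
    omega

/-- The arithmetic of the quaternion case. -/
theorem quat_numeric {p d m s : ℕ} (hp : p.Prime) (hodd : p ≠ 2) (hd : 1 ≤ d) (hs : s = p ^ d)
    (hm : 2 ∣ m) (hm0 : m ≠ 0) (h : s ^ m - 1 ∣ 24 * (s - 1) * d) :
    m = 2 ∧ d = 1 ∧ (s = 3 ∨ s = 5 ∨ s = 7 ∨ s = 11 ∨ s = 23) := by
  have hp3 : 3 ≤ p := by
    have := hp.two_le
    omega
  have hs3 : 3 ≤ s := by
    rw [hs]
    calc 3 ≤ p := hp3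
      _ = p ^ 1 := (pow_one p).symm
      _ ≤ p ^ d := Nat.pow_le_pow_right hp.pos hd
  have hgeom := geom_mul_eq s m (by omega)
  have hdvd : ∑ i ∈ Finset.range m, s ^ i ∣ 24 * d := by
    rw [← hgeom] at h
    have e : 24 * (s - 1) * d = 24 * d * (s - 1) := by ring
    rw [e] at h
    exact Nat.dvd_of_mul_dvd_mul_right (by omega) h
  have hd24 : 0 < 24 * d := by omega
  have hm2 : m = 2 := by
    by_contra hcon
    have hm4 : 4 ≤ m := by
      obtain ⟨c, rfl⟩ := hm
      omega
    have h1 : s ^ 3 ≤ ∑ i ∈ Finset.range m, s ^ i :=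
      Finset.single_le_sum (f := fun i => s ^ i) (fun _ _ => Nat.zero_le _)
        (Finset.mem_range.2 (by omega))
    have h2 := Nat.le_of_dvd hd24 hdvd
    have h3 : 27 ^ d ≤ s ^ 3 := by
      rw [hs, ← pow_mul, mul_comm, pow_mul]
      exact Nat.pow_le_pow_left (by
        calc 27 = 3 ^ 3 := by norm_num
          _ ≤ p ^ 3 := Nat.pow_le_pow_left hp3 _) _
    have h4 := lt_twentyseven_pow d hd
    omega
  subst hm2
  refine ⟨rfl, ?_⟩
  have hdv : 1 + s ∣ 24 * d := by
    simpa [Finset.sum_range_succ] using hdvd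
  have hle := Nat.le_of_dvd hd24 hdv
  have hd4 : d ≤ 4 := by
    by_contra hcon
    have h3 := lt_three_pow d (by omega)
    have h4 : 3 ^ d ≤ s := by
      rw [hs]
      exact Nat.pow_le_pow_left hp3 _
    omega
  interval_cases d
  · refine ⟨rfl, ?_⟩
    simp only [pow_one] at hs
    subst hs
    have : s ≤ 23 := by omega
    interval_cases s <;> first | omega | (exfalso; revert hdv; decide) | (revert hp; norm_num; done)
  · exfalso
    subst hs
    have : p ≤ 6 := by
      by_contra hcon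
      have : 7 ^ 2 ≤ p ^ 2 := Nat.pow_le_pow_left (by omega) _
      omega
    interval_cases p <;> first | (revert hdv; decide) | (revert hp; norm_num; done)
  · exfalso
    subst hs
    have : p ≤ 4 := by
      by_contra hcon
      have : 5 ^ 3 ≤ p ^ 3 := Nat.pow_le_pow_left (by omega) _
      omega
    interval_cases p <;> first | (revert hdv; decide) | (revert hp; norm_num; done)
  · exfalso
    subst hs
    have : p ≤ 3 := by
      by_contra hcon
      have : 4 ^ 4 ≤ p ^ 4 := Nat.pow_le_pow_left (by omega) _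
      omega
    interval_cases p <;> first | (revert hdv; decide) | (revert hp; norm_num; done)

/-- In a cyclic group the product of two non-squares is a square. -/
theorem mul_sq_of_not_sq {C : Type*} [Group C] [IsCyclic C] [Finite C] {a b : C}
    (ha : ¬ ∃ c, a = c ^ 2) (hb : ¬ ∃ c, b = c ^ 2) : ∃ c, a * b = c ^ 2 := by
  obtain ⟨β, hβ⟩ := IsCyclic.exists_monoid_generator (α := C)
  obtain ⟨i, rfl⟩ := Submonoid.mem_powers_iff _ _ |>.1 (hβ a)
  obtain ⟨j, rfl⟩ := Submonoid.mem_powers_iff _ _ |>.1 (hβ b)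
  have hi : i % 2 = 1 := by
    by_contra hcon
    exact ha ⟨β ^ (i / 2), by
      rw [← pow_mul]
      congr 1
      omega⟩
  have hj : j % 2 = 1 := by
    by_contra hcon
    exact hb ⟨β ^ (j / 2), by
      rw [← pow_mul]
      congr 1
      omega⟩
  refine ⟨β ^ ((i + j) / 2), ?_⟩
  rw [← pow_add, ← pow_mul]
  congr 1
  omega

namespace SLData

variable {K : Type u} {V : Type v} {G : Type w} [Field K] [AddCommGroup V] [Module K V] [Group G]
  (D : SLData K V G)

instance B_normal : D.B.Normal := D.hB.normal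

section

variable [Finite K] [Finite V] [Nontrivial V] [Finite G]

section NoInv

variable (h1 : ∀ x ∈ tee D.B, x ^ 2 ∈ D.B) (h2 : ∀ t ∈ tee D.B, t ∉ D.B → t ^ 2 ≠ 1)

include h2 in
/-- squares of non-central elements are not squares in `B`. -/
theorem not_sq {u : G} (hu : u ∈ tee D.B) (huB : u ∉ D.B) (b : G) (hb : b ∈ D.B) : u ^ 2 ≠ b ^ 2 := by
  intro h
  refine h2 (u * b⁻¹) (mul_mem hu (inv_mem (D.hB.le_tee hb))) ?_ ?_
  · intro h3
    apply huB
    have := mul_mem h3 hb
    simpa using this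
  · have hc : Commute u b⁻¹ := (comm_of_mem_tee (inv_mem hb) hu).symm
    rw [hc.mul_pow, h, inv_pow, mul_inv_cancel]

include h1 h2 in
/-- Independent elements do not commute. -/
theorem not_commute {u v : G} (hu : u ∈ tee D.B) (hv : v ∈ tee D.B) (huB : u ∉ D.B) (hvB : v ∉ D.B)
    (huvB : u * v ∉ D.B) : u * v ≠ v * u := by
  intro hcomm
  haveI := D.isCyclic_B (K := K) (V := V)
  haveI : Finite D.B := inferInstance
  have hnu : ¬ ∃ c : D.B, (⟨u ^ 2, h1 u hu⟩ : D.B) = c ^ 2 := by
    rintro ⟨c, hc⟩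
    exact D.not_sq h2 hu huB c c.2 (congrArg Subtype.val hc)
  have hnv : ¬ ∃ c : D.B, (⟨v ^ 2, h1 v hv⟩ : D.B) = c ^ 2 := by
    rintro ⟨c, hc⟩
    exact D.not_sq h2 hv hvB c c.2 (congrArg Subtype.val hc)
  obtain ⟨c, hc⟩ := mul_sq_of_not_sq hnu hnv
  have hc' : u ^ 2 * v ^ 2 = (c : G) ^ 2 := congrArg Subtype.val hc
  have hcm : Commute u v := hcomm
  refine D.not_sq h2 (mul_mem hu hv) huvB c c.2 ?_
  rw [hcm.mul_pow, hc']

theorem comm_eq_of_ne_one {a b : G} (ha : a ∈ D.B) (hb : b ∈ D.B) (ha2 : a ^ 2 = 1) (hb2 : b ^ 2 = 1)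
    (ha1 : a ≠ 1) (hb1 : b ≠ 1) : a = b := by
  have hs : ∀ {c : G} (hc : c ∈ D.B), c ^ 2 = 1 → c ≠ 1 → (D.sc c hc : K) = -1 := by
    intro c hc hc2 hc1
    have h3 : (D.sc c hc : K) * (D.sc c hc : K) = 1 := by
      have h4 := D.sc_pow hc 2
      rw [D.sc_congr hc2 _ (one_mem _), D.sc_one] at h4
      have := congrArg Units.val h4
      simpa [pow_two] using this.symm
    rcases mul_self_eq_one_iff.1 h3 with h5 | h5
    · exact absurd (D.eq_one_of_sc_eq_one (Units.ext h5)) hc1
    · exact h5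
  apply D.sc_inj (ha := ha) (hb := hb)
  apply Units.ext
  rw [hs ha ha2 ha1, hs hb hb2 hb1]

include h1 h2 in
/-- At most four cosets. -/
theorem index_le_four : (D.B.subgroupOf (tee D.B)).index ≤ 4 := by
  classical
  by_cases hT : tee D.B ≤ D.B
  · have : (D.B.subgroupOf (tee D.B)) = ⊤ := Subgroup.subgroupOf_eq_top.2 hT
    rw [this, Subgroup.index_top]
    omega
  obtain ⟨u, hu, huB⟩ := SetLike.not_le_iff_exists.1 hT
  obtain ⟨y, hy, hne⟩ := D.exists_comm_ne_one hu huB
  rw [D.index_eq]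
  set π := QuotientGroup.mk' D.B with hπ
  have hsq : ∀ v ∈ tee D.B, ⁅u, v⁆ ^ 2 = 1 := by
    intro v hv
    rw [← D.comm_pow_left' hu hv]
    exact D.comm_eq_one_of_mem_B (h1 u hu) hv
  have hkey : ∀ w ∈ tee D.B, ⁅u, w⁆ = 1 → π w = 1 ∨ π u * π w = 1 := by
    intro w hw hc
    by_contra hcon
    push Not at hcon
    have hwB : w ∉ D.B := fun h => hcon.1 ((QuotientGroup.eq_one_iff w).2 h)
    have huwB : u * w ∉ D.B := fun h => hcon.2 (by
      rw [← map_mul]
      exact (QuotientGroup.eq_one_iff _).2 h)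
    exact D.not_commute h1 h2 hu hw huB hwB huwB (commutatorElement_eq_one_iff_commute.1 hc)
  have hcover : ∀ c ∈ (tee D.B).map π, c ∈ ({1, (π u)⁻¹, π y, (π u)⁻¹ * π y} : Finset (G ⧸ D.B)) := by
    rintro _ ⟨v, hv, rfl⟩
    by_cases hc : ⁅u, v⁆ = 1
    · rcases hkey v hv hc with h3 | h3
      · simp [h3]
      · have : π v = (π u)⁻¹ := eq_inv_of_mul_eq_one_right h3
        simp [this]
    · have hu2 := D.comm_eq_of_ne_one (D.hB.comm_mem' hu hv) (D.hB.comm_mem' hu hy) (hsq v hv)
        (hsq y hy) hc hne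
      have hw : v * y⁻¹ ∈ tee D.B := mul_mem hv (inv_mem hy)
      have h4 : ⁅u, v * y⁻¹⁆ = 1 := by
        rw [D.comm_mul_right hv (inv_mem hy) hu, hu2]
        have h5 : ⁅u, y⁻¹⁆ = ⁅u, y⁆⁻¹ := by
          have h6 := D.comm_mul_right hy (inv_mem hy) hu
          rw [mul_inv_cancel] at h6
          have h7 : ⁅u, (1 : G)⁆ = 1 := by simp
          rw [h7] at h6
          exact eq_inv_of_mul_eq_one_right h6.symm
        rw [h5, mul_inv_cancel]
      rcases hkey _ hw h4 with h3 | h3
      · have : π v = π y := by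
          rw [map_mul, map_inv] at h3
          exact mul_inv_eq_one.1 h3
        simp [this]
      · have : π v = (π u)⁻¹ * π y := by
          rw [map_mul, map_inv, ← mul_assoc] at h3
          have h5 := mul_inv_eq_one.1 h3
          rw [← h5]
          group
        simp [this]
  set S : Finset (G ⧸ D.B) := {1, (π u)⁻¹, π y, (π u)⁻¹ * π y} with hS
  have hfin : Nat.card ((tee D.B).map π) ≤ Nat.card S :=
    Nat.card_le_card_of_injective (fun c => (⟨c.1, hcover _ c.2⟩ : S))
      (fun a b h => Subtype.ext (congrArg (fun x : S => x.1) h))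
  have hS' : Nat.card S = S.card := by rw [Nat.card_eq_fintype_card, Fintype.card_coe]
  rw [hS'] at hfin
  exact hfin.trans Finset.card_le_four

end NoInv

/-- The non-trivial cosets of `B` in `T`. -/
def Cosets : Type w := {c : G ⧸ D.B // c ∈ (tee D.B).map (QuotientGroup.mk' D.B) ∧ c ≠ 1}

instance cosetsAction : MulAction G D.Cosets where
  smul g c := ⟨QuotientGroup.mk' D.B g * c.1 * (QuotientGroup.mk' D.B g)⁻¹, by
    obtain ⟨t, ht, hc⟩ := c.2.1
    refine ⟨g * t * g⁻¹, Subgroup.Normal.conj_mem D.hB.tee_normal t ht g, ?_⟩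
    rw [← hc]
    simp, by
    intro h
    apply c.2.2
    have := congrArg (fun x => (QuotientGroup.mk' D.B g)⁻¹ * x * (QuotientGroup.mk' D.B g)) h
    simpa [mul_assoc] using this⟩
  one_smul c := by
    apply Subtype.ext
    show QuotientGroup.mk' D.B 1 * c.1 * (QuotientGroup.mk' D.B 1)⁻¹ = c.1
    simp
  mul_smul g h c := by
    apply Subtype.ext
    show QuotientGroup.mk' D.B (g * h) * c.1 * (QuotientGroup.mk' D.B (g * h))⁻¹
      = QuotientGroup.mk' D.B g * (QuotientGroup.mk' D.B h * c.1 * (QuotientGroup.mk' D.B h)⁻¹)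
        * (QuotientGroup.mk' D.B g)⁻¹
    simp only [map_mul]
    group

theorem cosets_smul_val (g : G) (c : D.Cosets) :
    (g • c).1 = QuotientGroup.mk' D.B g * c.1 * (QuotientGroup.mk' D.B g)⁻¹ := rfl

/-- The permutation action on the non-trivial cosets. -/
noncomputable def cosetPerm : G →* Equiv.Perm D.Cosets := MulAction.toPermHom G D.Cosets

theorem mem_tee_of_ker [Group.IsSolvable G] {g : G} (h1 : D.σ g = 1) (h2 : D.cosetPerm g = 1) :
    g ∈ tee D.B := by
  rw [← D.hB.stabT_eq]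
  refine ⟨D.mem_centralizer_of_σ_eq_one h1, fun t ht => ?_⟩
  by_cases htB : t ∈ D.B
  · have h3 : ⁅g, t⁆ = 1 := by
      rw [commutatorElement_eq_one_iff_commute]
      exact ((mem_centralizer_iff.1 (D.mem_centralizer_of_σ_eq_one h1)) t htB).symm
    rw [h3]
    exact one_mem _
  · have hne : QuotientGroup.mk' D.B t ≠ 1 := fun h => htB ((QuotientGroup.eq_one_iff t).1 h)
    let c : D.Cosets := ⟨QuotientGroup.mk' D.B t, ⟨t, ht, rfl⟩, hne⟩
    have h3 : g • c = c := by
      have := Equiv.congr_fun h2 c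
      exact this
    have h4 := congrArg Subtype.val h3
    rw [cosets_smul_val] at h4
    have h5 : QuotientGroup.mk' D.B ⁅g, t⁆ = 1 := by
      rw [commutatorElement_def, map_mul, map_mul, map_mul, map_inv, map_inv]
      show QuotientGroup.mk' D.B g * c.1 * (QuotientGroup.mk' D.B g)⁻¹ * (c.1)⁻¹ = 1
      rw [h4]
      simp
    exact (QuotientGroup.eq_one_iff _).1 h5

theorem card_cosets : Nat.card D.Cosets = (D.B.subgroupOf (tee D.B)).index - 1 := by
  classical
  haveI : Fintype (G ⧸ D.B) := Fintype.ofFinite _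
  haveI : Fintype ((tee D.B).map (QuotientGroup.mk' D.B)) := Fintype.ofFinite _
  rw [D.index_eq]
  unfold Cosets
  rw [Nat.card_eq_fintype_card, Nat.card_eq_fintype_card, Fintype.card_subtype, Fintype.card_subtype]
  have : (Finset.univ.filter (fun c : G ⧸ D.B => c ∈ (tee D.B).map (QuotientGroup.mk' D.B) ∧ c ≠ 1))
      = (Finset.univ.filter (fun c : G ⧸ D.B => c ∈ (tee D.B).map (QuotientGroup.mk' D.B))).erase 1 := by
    ext c
    simp [and_comm]
  rw [this, Finset.card_erase_of_mem (Finset.mem_filter.2 ⟨Finset.mem_univ _, one_mem _⟩)]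

theorem card_tee : Nat.card (tee D.B) = (D.B.subgroupOf (tee D.B)).index * Nat.card D.B := by
  have h1 := Subgroup.card_mul_index (D.B.subgroupOf (tee D.B))
  have h2 : Nat.card (D.B.subgroupOf (tee D.B)) = Nat.card D.B :=
    Nat.card_congr (Subgroup.subgroupOfEquivOfLe D.hB.le_tee).toEquiv
  rw [h2] at h1
  rw [← h1, mul_comm]

/-- The order of `G` in the quaternion case. -/
theorem card_G_dvd [Group.IsSolvable G] (ha : (D.B.subgroupOf (tee D.B)).index ≤ 4) :
    Nat.card G ∣ 24 * (Nat.card K - 1) * Nat.card (RingAut K) := by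
  classical
  obtain ⟨p, d, hp, hd, hs, hAut, -⟩ := card_ringAut K
  haveI : Finite (RingAut K) := Nat.finite_of_card_ne_zero (by omega)
  haveI : Finite D.Cosets := by
    unfold Cosets
    infer_instance
  set a := (D.B.subgroupOf (tee D.B)).index with hadef
  have ha0 : 0 < a := Nat.pos_of_ne_zero Subgroup.index_ne_zero_of_finite
  let φ : G →* Equiv.Perm D.Cosets × RingAut K := D.cosetPerm.prod D.σ
  have hker : φ.ker ≤ tee D.B := by
    intro g hg
    have h1 : φ g = 1 := hg
    exact D.mem_tee_of_ker (congrArg Prod.snd h1) (congrArg Prod.fst h1)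
  have h1 : Nat.card φ.ker ∣ Nat.card (tee D.B) := Subgroup.card_dvd_of_le hker
  have h2 : Nat.card φ.range ∣ Nat.card (Equiv.Perm D.Cosets × RingAut K) :=
    Subgroup.card_subgroup_dvd_card _
  rw [Nat.card_prod, Nat.card_perm, D.card_cosets, ← hadef] at h2
  have h3 : Nat.card G = Nat.card φ.ker * Nat.card φ.range := by
    rw [← Subgroup.card_mul_index φ.ker, Subgroup.index_ker]
  rw [h3]
  have h4 : a * (a - 1).factorial ∣ 24 := by
    interval_cases a <;> decide
  have hB := D.card_B_dvd (K := K) (V := V)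
  rw [D.card_tee, ← hadef] at h1
  calc Nat.card φ.ker * Nat.card φ.range
      ∣ (a * Nat.card D.B) * ((a - 1).factorial * Nat.card (RingAut K)) := Nat.mul_dvd_mul h1 h2
    _ = (a * (a - 1).factorial) * Nat.card D.B * Nat.card (RingAut K) := by ring
    _ ∣ 24 * (Nat.card K - 1) * Nat.card (RingAut K) :=
      Nat.mul_dvd_mul_right (Nat.mul_dvd_mul h4 hB) _

/-- The outcome of the quaternion case. -/
theorem quat_case [Group.IsSolvable G] (hT : tee D.B ≠ D.B) (h1 : ∀ x ∈ tee D.B, x ^ 2 ∈ D.B)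
    (h2 : ∀ t ∈ tee D.B, t ∉ D.B → t ^ 2 ≠ 1) :
    finrank K V = 2 ∧ (Nat.card K = 3 ∨ Nat.card K = 5 ∨ Nat.card K = 7 ∨ Nat.card K = 11 ∨
      Nat.card K = 23) := by
  haveI : Module.Finite K V := Module.Finite.of_finite
  obtain ⟨p, d, hp, hd, hs, hAut, hch⟩ := card_ringAut K
  have hdvdG := D.card_G_dvd (D.index_le_four h1 h2)
  rw [hAut] at hdvdG
  obtain ⟨u, hu, huB⟩ : ∃ x ∈ tee D.B, x ∉ D.B := by
    by_contra hcon
    push Not at hcon
    exact hT (le_antisymm hcon D.hB.le_tee)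
  obtain ⟨h3, h4⟩ := D.good_prime Nat.prime_two hu huB (h1 u hu)
  have hsdvd : 2 ∣ Nat.card K - 1 := h4.trans D.card_B_dvd
  have hp2 : p ≠ 2 := by
    rintro rfl
    have h5 : 2 ∣ Nat.card K := by
      rw [hs]
      exact dvd_pow_self 2 (by omega)
    have h6 : 2 ≤ Nat.card K := Finite.one_lt_card
    omega
  have hm0 : finrank K V ≠ 0 := (Module.finrank_pos (R := K) (M := V)).ne'
  have h7 := card_sub_one_dvd D
  rw [card_eq_pow_finrank (K := K) (V := V)] at h7
  obtain ⟨h8, -, h9⟩ := quat_numeric hp hp2 hd hs h3 hm0 (h7.trans hdvdG)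
  exact ⟨h8, h9⟩

end

end SLData

end Cfsg.Agent.Lib.Huppert
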