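import Mathlib
import Cfsg.Agent.Lib.Huppert.Quat

/-!
# Huppert's theorem on solvable transitive linear groups
-/

set_option autoImplicit false
set_option linter.unusedSectionVars false

namespace Cfsg.Agent.Lib.Huppert

open Subgroup Module
open scoped commutatorElement

universe u v w

namespace SLData

variable {K : Type u} {V : Type v} {G : Type w} [Field K] [AddCommGroup V] [Module K V] [Group G]
  (D : SLData K V G)

section

variable [Finite K] [Finite V] [Nontrivial V] [Finite G]

/-- Good primes from the quotient. -/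
theorem good_of_dvd_index {p : ℕ} (hp : p.Prime) (h : p ∣ (D.B.subgroupOf (tee D.B)).index) :
    ∃ x ∈ tee D.B, x ∉ D.B ∧ x ^ p ∈ D.B := by
  classical
  haveI : Fact p.Prime := ⟨hp⟩
  obtain ⟨c, hc⟩ := exists_prime_orderOf_dvd_card' (G := tee D.B ⧸ D.B.subgroupOf (tee D.B)) p h
  obtain ⟨t, rfl⟩ := QuotientGroup.mk_surjective c
  refine ⟨t, t.2, ?_, ?_⟩
  · intro ht
    have h1 : (t : tee D.B ⧸ D.B.subgroupOf (tee D.B)) = 1 :=
      (QuotientGroup.eq_one_iff t).2 (Subgroup.mem_subgroupOf.2 ht)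
    rw [h1, orderOf_one] at hc
    exact hp.one_lt.ne hc
  · have h1 : (t : tee D.B ⧸ D.B.subgroupOf (tee D.B)) ^ p = 1 := by
      rw [← hc]
      exact pow_orderOf_eq_one _
    rw [← QuotientGroup.mk_pow, QuotientGroup.eq_one_iff, Subgroup.mem_subgroupOf] at h1
    simpa using h1

/-- `T` is an `r`-group when `s - 1` is. -/
theorem tee_pgroup {r : ℕ} (hs : ∀ p : ℕ, p.Prime → p ∣ Nat.card K - 1 → p = r) :
    ∃ e, Nat.card (tee D.B) = r ^ e := by
  refine ⟨_, Nat.eq_prime_pow_of_unique_prime_dvd Nat.card_pos.ne' ?_⟩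
  intro p hp hdvd
  rw [D.card_tee] at hdvd
  rcases (Nat.Prime.dvd_mul hp).1 hdvd with h | h
  · obtain ⟨x, hx, hxB, hxp⟩ := D.good_of_dvd_index hp h
    obtain ⟨-, h2⟩ := D.good_prime hp hx hxB hxp
    exact hs p hp (h2.trans D.card_B_dvd)
  · exact hs p hp (h.trans D.card_B_dvd)

include D in
/-- Excluding dimensions with a big prime. -/
theorem exclude_case [Group.IsSolvable G] {ℓ r E m s : ℕ} (hℓ : ℓ.Prime) (hr : r.Prime) (hne : ℓ ≠ r)
    (hm : finrank K V = m) (hs : Nat.card K = s) (hℓs : ℓ ∣ s ^ m - 1)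
    (hsp : ∀ p : ℕ, p.Prime → p ∣ s - 1 → p = r) (hord : ∀ i, 0 < i → i ≤ E → ¬ ℓ ∣ r ^ i - 1)
    (hbd : m ^ 2 * (s - 1) < r ^ (E + 1)) (hℓB : ∀ x, x ∣ s - 1 → ¬ ℓ ∣ x) (hs2 : 2 ≤ s) : False := by
  obtain ⟨e, he⟩ := D.tee_pgroup (r := r) (by rw [hs]; exact hsp)
  have h1 : Nat.card D.B ∣ s - 1 := hs ▸ D.card_B_dvd
  have h2 : Nat.card (tee D.B) ≤ m ^ 2 * (s - 1) := by
    rw [D.card_tee]
    apply Nat.mul_le_mul
    · rw [← hm]
      exact D.index_le
    · exact Nat.le_of_dvd (by omega) h1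
  have hE : e ≤ E := by
    by_contra hcon
    have : r ^ (E + 1) ≤ r ^ e := Nat.pow_le_pow_right hr.pos (by omega)
    omega
  refine D.no_large_prime hℓ hr hne ?_ hE he hord (hℓB _ h1)
  have h3 := card_sub_one_dvd D
  rw [card_eq_pow_finrank (K := K) (V := V), hm, hs] at h3
  exact hℓs.trans h3

/-- Squares in `B`. -/
theorem two_only (h : ∀ r : ℕ, r.Prime → ∀ x ∈ tee D.B, x ∉ D.B → x ^ r ∈ D.B → r = 2) :
    ∀ x ∈ tee D.B, x ^ 2 ∈ D.B := by
  classical
  intro x hx
  by_cases hxB : x ∈ D.B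
  · exact pow_mem hxB 2
  set o := orderOf (QuotientGroup.mk' D.B x) with ho
  have hpos : o ≠ 0 := (orderOf_pos _).ne'
  have huniq : ∀ {d : ℕ}, d.Prime → d ∣ o → d = 2 := by
    intro d hd hdvd
    obtain ⟨c, hc⟩ := hdvd
    have h1 : (QuotientGroup.mk' D.B x) ^ (c * d) = 1 := by
      rw [mul_comm, ← hc]
      exact pow_orderOf_eq_one _
    refine h d hd (x ^ c) (pow_mem hx c) ?_ ?_
    · intro h2
      have h3 : (QuotientGroup.mk' D.B x) ^ c = 1 := by
        rw [← map_pow]
        exact (QuotientGroup.eq_one_iff _).2 h2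
      have h4 : o ∣ c := orderOf_dvd_of_pow_eq_one h3
      have hc0 : 0 < c := by
        rcases Nat.eq_zero_or_pos c with h0 | h0
        · rw [h0, mul_zero] at hc
          exact absurd hc hpos
        · exact h0
      have h5 := Nat.le_of_dvd hc0 h4
      rw [hc] at h5
      have h6 := hd.two_le
      nlinarith
    · rw [← pow_mul]
      rw [← map_pow] at h1
      exact (QuotientGroup.eq_one_iff _).1 h1
  have he := Nat.eq_prime_pow_of_unique_prime_dvd hpos huniq
  apply D.pow_r_mem hx o.primeFactorsList.length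
  rw [← he]
  have h2 : (QuotientGroup.mk' D.B x) ^ o = 1 := pow_orderOf_eq_one _
  rw [← map_pow] at h2
  exact (QuotientGroup.eq_one_iff _).1 h2

include D in
/-- Huppert's theorem in terms of the semilinear data. -/
theorem huppert_main [Group.IsSolvable G] :
    finrank K V = 1 ∨ Nat.card V ∈ ({9, 25, 49, 121, 529, 81} : Set ℕ) := by
  by_cases hm : finrank K V = 1
  · exact Or.inl hm
  right
  have hT : tee D.B ≠ D.B := fun h => hm (D.finrank_eq_one_of_tee_eq h)
  rw [card_eq_pow_finrank (K := K) (V := V)]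
  by_cases hinv : ∃ r : ℕ, r.Prime ∧ ∃ t ∈ tee D.B, t ∉ D.B ∧ t ^ r = 1
  · obtain ⟨r, hr, t, ht, htB, htr⟩ := hinv
    rcases D.main_estimate hr ht htB htr with ⟨rfl, h⟩ | ⟨rfl, h1, h2⟩
    · rcases h with ⟨h1, h2 | h2⟩ | ⟨h1, h2 | h2⟩ | ⟨h1, h2⟩ | ⟨h1, h2⟩
      · rw [h1, h2]; norm_num
      · rw [h1, h2]; norm_num
      · rw [h1, h2]; norm_num
      · -- 625
        exfalso
        refine D.exclude_case (ℓ := 13) (r := 2) (E := 6) (by norm_num) (by norm_num) (by norm_num)
          h1 h2 (by norm_num) ?_ ?_ (by norm_num) ?_ (by norm_num)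
        · intro p hp h
          have : p ≤ 4 := Nat.le_of_dvd (by norm_num) h
          interval_cases p <;> first | rfl | (revert hp; norm_num; done) | (revert h; decide)
        · intro i hi hi2
          interval_cases i <;> decide
        · intro x hx
          have : x ≤ 4 := Nat.le_of_dvd (by norm_num) hx
          interval_cases x <;> first | decide | (exfalso; revert hx; decide)
      · -- 729
        exfalso
        refine D.exclude_case (ℓ := 13) (r := 2) (E := 6) (by norm_num) (by norm_num) (by norm_num)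
          h1 h2 (by norm_num) ?_ ?_ (by norm_num) ?_ (by norm_num)
        · intro p hp h
          have : p ≤ 2 := Nat.le_of_dvd (by norm_num) h
          interval_cases p <;> first | rfl | (revert hp; norm_num; done) | (revert h; decide)
        · intro i hi hi2
          interval_cases i <;> decide
        · intro x hx
          have : x ≤ 2 := Nat.le_of_dvd (by norm_num) hx
          interval_cases x <;> first | decide | (exfalso; revert hx; decide)
      · -- 6561
        exfalso
        refine D.exclude_case (ℓ := 41) (r := 2) (E := 7) (by norm_num) (by norm_num) (by norm_num)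
          h1 h2 (by norm_num) ?_ ?_ (by norm_num) ?_ (by norm_num)
        · intro p hp h
          have : p ≤ 2 := Nat.le_of_dvd (by norm_num) h
          interval_cases p <;> first | rfl | (revert hp; norm_num; done) | (revert h; decide)
        · intro i hi hi2
          interval_cases i <;> decide
        · intro x hx
          have : x ≤ 2 := Nat.le_of_dvd (by norm_num) hx
          interval_cases x <;> first | decide | (exfalso; revert hx; decide)
    · -- 64
      exfalso
      refine D.exclude_case (ℓ := 7) (r := 3) (E := 3) (by norm_num) (by norm_num) (by norm_num)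
          h1 h2 (by norm_num) ?_ ?_ (by norm_num) ?_ (by norm_num)
      · intro p hp h
        have : p ≤ 3 := Nat.le_of_dvd (by norm_num) h
        interval_cases p <;> first | rfl | (revert hp; norm_num; done) | (revert h; decide)
      · intro i hi hi2
        interval_cases i <;> decide
      · intro x hx
        have : x ≤ 3 := Nat.le_of_dvd (by norm_num) hx
        interval_cases x <;> first | decide | (exfalso; revert hx; decide)
  · push Not at hinv
    have h2only : ∀ r : ℕ, r.Prime → ∀ x ∈ tee D.B, x ∉ D.B → x ^ r ∈ D.B → r = 2 := by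
      intro r hr x hx hxB hxr
      by_contra hne
      obtain ⟨t, ht, htB, htr⟩ := D.exists_order_r hr hne hx hxB hxr
      exact hinv r hr t ht htB htr
    have h1 := D.two_only h2only
    have h2 : ∀ t ∈ tee D.B, t ∉ D.B → t ^ 2 ≠ 1 := fun t ht htB => hinv 2 Nat.prime_two t ht htB
    obtain ⟨h3, h4⟩ := D.quat_case hT h1 h2
    rw [h3]
    rcases h4 with h4 | h4 | h4 | h4 | h4 <;> rw [h4] <;> norm_num

end

end SLData

/-- Transfer of a field structure to universe zero. -/
theorem transfer_field {K : Type u} [Field K] [Finite K] {V : Type v} [AddCommGroup V]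
    {G : Type w} (act : G → V → V)
    (h : ∃ e₀ : V ≃+ K, ∀ g, ∃ (a : K) (σ : K ≃+* K), ∀ v, e₀ (act g v) = a * σ (e₀ v)) :
    ∃ (F : Type) (_ : Field F) (_ : Fintype F) (e : V ≃+ F),
      ∀ g : G, ∃ (a : F) (σ : F ≃+* F), ∀ v : V, e (act g v) = a * σ (e v) := by
  obtain ⟨e₀, he₀⟩ := h
  let ε : Shrink.{0} K ≃+* K := Equiv.ringEquiv (equivShrink.{0} K).symm
  haveI : Finite (Shrink.{0} K) := Finite.of_equiv K ε.symm.toEquiv
  refine ⟨Shrink.{0} K, inferInstance, Fintype.ofFinite _, e₀.trans ε.symm.toAddEquiv, fun g => ?_⟩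
  obtain ⟨a, σ, hσ⟩ := he₀ g
  refine ⟨ε.symm a, ε.trans (σ.trans ε.symm), fun v => ?_⟩
  simp [hσ]

namespace SLData

variable {K : Type u} {V : Type v} {G : Type w} [Field K] [AddCommGroup V] [Module K V] [Group G]
  (D : SLData K V G)

/-- One-dimensional case: `G` lies in the semilinear group of `K`. -/
theorem exists_addEquiv_of_finrank_eq_one [Finite K] [Finite V] [Nontrivial V]
    (hm : finrank K V = 1) :
    ∃ e₀ : V ≃+ K, ∀ g, ∃ (a : K) (σ : K ≃+* K), ∀ v, e₀ (D.ρ g v) = a * σ (e₀ v) := by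
  obtain ⟨v₀, hv₀⟩ : ∃ v : V, v ≠ 0 := exists_ne 0
  have hspan := (finrank_eq_one_iff_of_nonzero' v₀ hv₀).1 hm
  let f : K →+ V := { toFun := fun a => a • v₀, map_zero' := zero_smul _ _, map_add' := fun a b => add_smul a b v₀ }
  have hbij : Function.Bijective f := by
    constructor
    · intro a b hab
      exact smul_left_injective K hv₀ hab
    · intro w
      obtain ⟨c, hc⟩ := hspan w
      exact ⟨c, hc⟩
  let e₁ : K ≃+ V := AddEquiv.ofBijective f hbij
  refine ⟨e₁.symm, fun g => ?_⟩
  obtain ⟨c, hc⟩ := hspan (D.ρ g v₀)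
  refine ⟨c, D.σ g, fun v => ?_⟩
  obtain ⟨a, rfl⟩ := e₁.surjective v
  rw [AddEquiv.symm_apply_apply, AddEquiv.symm_apply_eq]
  show D.ρ g (a • v₀) = (c * (D.σ g) a) • v₀
  rw [D.semi, ← hc, smul_smul, mul_comm]

end SLData

/-- **Huppert's theorem**. -/
theorem huppert_theorem
    (q : ℕ) [Fact q.Prime] {V : Type v} [AddCommGroup V] [Module (ZMod q) V] [Finite V] [Nontrivial V]
    {G : Type w} [Group G] [Finite G] (hsol : Group.IsSolvable G)
    (ρ : G →* (V ≃ₗ[ZMod q] V)) (hρ : Function.Injective ρ)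
    (htrans : ∀ v w : V, v ≠ 0 → w ≠ 0 → ∃ g : G, ρ g v = w) :
    (∃ (F : Type) (_ : Field F) (_ : Fintype F) (e : V ≃+ F),
        ∀ g : G, ∃ (a : F) (σ : F ≃+* F), ∀ v : V, e (ρ g v) = a * σ (e v)) ∨
    Nat.card V ∈ ({9, 25, 49, 121, 529, 81} : Set ℕ) := by
  obtain ⟨B, hB⟩ := exists_isMaxAbNormal (G := G)
  obtain ⟨K, hK, hKfin, hmod, D, hD, -, -⟩ := field_step q ρ hρ htrans B hB
  rcases D.huppert_main with hm | hc
  · left
    have h := D.exists_addEquiv_of_finrank_eq_one hm
    obtain ⟨e₀, he₀⟩ := h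
    refine transfer_field (fun g v => ρ g v) ⟨e₀, fun g => ?_⟩
    obtain ⟨a, σ, hσ⟩ := he₀ g
    exact ⟨a, σ, fun v => by rw [← hD]; exact hσ v⟩
  · exact Or.inr hc

end Cfsg.Agent.Lib.Huppert
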